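import Mathlib
import Cfsg.Agent.HeS.Int

/-!
Facts about the group `P` of order 256, the symmetry exchanging `E1` and `E2`, and first consequences of the data `Int`.
-/

set_option autoImplicit false
set_option maxRecDepth 100000
set_option synthInstance.maxSize 100000
set_option synthInstance.maxHeartbeats 1000000

namespace Cfsg.Agent.HeS

open Cfsg.Agent.Spor Cfsg.Agent.Rec Cfsg.Agent.Rec.L52 Cfsg.Agent.Inv.Fz Cfsg.Agent.UT Subgroup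

universe u

variable {G : Type u} [Group G]

theorem cj_clos_le {g : G} {xs : List G} {K : Subgroup G} (h : ∀ x ∈ xs, g * x * g⁻¹ ∈ K) : cj g (clos xs) ≤ K :=
  cj_le_iff.2 (conj_clos_mem h)

theorem mem_of_cj {g x : G} {H K : Subgroup G} (h : cj g H = K) (hx : x ∈ H) : g * x * g⁻¹ ∈ K :=
  h ▸ conj_mem_cj.2 hx

theorem mem_of_cj' {g x : G} {H K : Subgroup G} (h : cj g H = K) (hx : x ∈ K) : g⁻¹ * x * g ∈ H :=
  mem_cj.1 (h ▸ hx)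

theorem cj_inv_eq {g : G} {H K : Subgroup G} (h : cj g H = K) : cj g⁻¹ K = H := by rw [← h, cj_inv_cj]

theorem cj_mul_eq {g k : G} {H K M : Subgroup G} (h : cj g K = M) (h' : cj k H = K) : cj (g * k) H = M := by
  rw [← cj_cj, h', h]

theorem le_or_le_of_mem {H K M : Subgroup G} (h : ∀ x ∈ H, x ∈ K ∨ x ∈ M) : H ≤ K ∨ H ≤ M := by
  by_cases h4 : H ≤ K
  · exact .inl h4
  refine .inr fun y hy => ?_
  obtain ⟨x, hx, h5⟩ := SetLike.not_le_iff_exists.1 h4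
  refine (h y hy).elim (fun h6 => ?_) id
  rcases h _ (mul_mem hx hy) with h7 | h7
  · exact absurd ((mul_mem_cancel_right h6).1 h7) h5
  · exact (mul_mem_cancel_left ((h x hx).resolve_left h5)).1 h7

namespace Let

variable (t : Let G)

theorem flip_P' : clos [t.x35, t.x34, t.x23, t.x13] = t.P :=
  le_antisymm (clos_le.2 fun x hx => mem_clos (by simp at hx ⊢; tauto))
    (clos_le.2 fun x hx => mem_clos (by simp at hx ⊢; tauto))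

theorem exists_flip : ∃ C : Cod A G, C.RepL c8 [t.x35, t.x25, t.z, t.x34, t.x24, t.x14, t.x23, t.x13] :=
  cod8 rfl ((t.rep.pick [7, 5, 2, 6, 4, 1, 3, 0]).sat (by decide +kernel)) (by
    have h : t.P ≤ clos [t.x35, t.x25, t.z, t.x34, t.x24, t.x14, t.x23, t.x13] :=
      clos_le.2 fun x hx => mem_clos (by simp at hx ⊢; tauto)
    have h' : clos [t.x35, t.x25, t.z, t.x34, t.x24, t.x14, t.x23, t.x13] ≤ t.P :=
      t.clos_e ▸ clos_le.2 fun x hx => mem_clos (by simp at hx ⊢; tauto)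
    rw [le_antisymm h' h, t.genP.2])

/-- The letters after the graph automorphism. -/
noncomputable def flip : Let G where
  x13 := t.x35
  x14 := t.x25
  z := t.z
  x23 := t.x34
  x24 := t.x24
  x25 := t.x14
  x34 := t.x23
  x35 := t.x13
  C := t.exists_flip.choose
  rep := t.exists_flip.choose_spec

theorem flip_P : t.flip.P = t.P := t.flip_P'
theorem flip_E1 : t.flip.E1 = t.E2 := rfl
theorem flip_E2 : t.flip.E2 = t.E1 := rfl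
theorem flip_A0 : t.flip.A0 = t.B0 := rfl
theorem flip_B0 : t.flip.B0 = t.A0 := rfl
theorem flip_Z : t.flip.Z = t.Z :=
  le_antisymm (clos_le.2 fun x hx => mem_clos (by simp [flip] at hx ⊢; tauto))
    (clos_le.2 fun x hx => mem_clos (by simp [flip] at hx ⊢; tauto))

theorem flip_V : t.flip.V = t.V := by
  have h : t.x25 * t.x14 ∈ t.V ∧ t.x25 * t.z * t.x24 ∈ t.V ∧ t.x14 * t.x25 = t.x25 * t.x14 ∧
      t.x14 * t.z * t.x24 = t.x25 * t.x14 * (t.x25 * t.z * t.x24) := t.lists.decide t.rep (by decide +kernel)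
  refine le_antisymm (clos_le.2 ?_) (clos_le.2 ?_) <;> simp only [List.forall_mem_cons]
  · exact ⟨h.1, h.2.1, by simp⟩
  · have a : t.x25 * t.x14 ∈ t.flip.V := mem_clos (by simp [flip])
    have b : t.x25 * t.z * t.x24 ∈ t.flip.V := mem_clos (by simp [flip])
    exact ⟨h.2.2.1 ▸ a, h.2.2.2 ▸ mul_mem a b, by simp⟩

theorem flip_W : t.flip.W = t.W := by
  have h : t.x14 * t.z * t.x25 = t.x25 * t.z * t.x14 := t.lists.decide t.rep (by decide +kernel)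
  change clos [t.z * t.x24, t.x25 * t.z * t.x14] = clos [t.z * t.x24, t.x14 * t.z * t.x25]
  rw [h]

theorem comm_Z : ∀ y ∈ t.Z, ∀ p ∈ t.P, p * y = y * p := t.lists.decide t.rep (by decide +kernel)
theorem Z_le1 : t.Z ≤ t.E1 := t.lists.decide t.rep (by decide +kernel)
theorem Z_le2 : t.Z ≤ t.E2 := t.lists.decide t.rep (by decide +kernel)
theorem E1_le : t.E1 ≤ t.P := t.lists.decide t.rep (by decide +kernel)
theorem E2_le : t.E2 ≤ t.P := t.lists.decide t.rep (by decide +kernel)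
theorem Z_le : t.Z ≤ t.P := t.Z_le1.trans t.E1_le
theorem V_le : t.V ≤ t.Z := t.lists.decide t.rep (by decide +kernel)
theorem W_le : t.W ≤ t.Z := t.lists.decide t.rep (by decide +kernel)
theorem A0_le : t.A0 ≤ t.E1 := t.lists.decide t.rep (by decide +kernel)
theorem B0_le : t.B0 ≤ t.E2 := t.flip.A0_le
theorem inv_mem : ∀ x ∈ t.P, x * x = 1 → x ∈ t.E1 ∨ x ∈ t.E2 := t.lists.decide t.rep (by decide +kernel)
theorem memZ : ∀ x ∈ t.E1, x ∈ t.E2 → x ∈ t.Z := t.lists.decide t.rep (by decide +kernel)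
theorem E1_comm : ∀ x ∈ t.E1, ∀ y ∈ t.E1, x * y = y * x := t.lists.decide t.rep (by decide +kernel)
theorem E2_comm : ∀ x ∈ t.E2, ∀ y ∈ t.E2, x * y = y * x := t.flip.E1_comm
theorem E1_sq : ∀ x ∈ t.E1, x * x = 1 := t.lists.decide t.rep (by decide +kernel)
theorem E2_sq : ∀ x ∈ t.E2, x * x = 1 := t.flip.E1_sq
theorem Z_sq : ∀ x ∈ t.Z, x * x = 1 := fun x hx => t.E1_sq x (t.Z_le1 hx)
theorem VW : ∀ x ∈ t.V, x ∈ t.W → x = 1 := t.lists.decide t.rep (by decide +kernel)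
theorem A0Z : ∀ x ∈ t.A0, x ∈ t.Z → x = 1 := t.lists.decide t.rep (by decide +kernel)
theorem split : ∀ y ∈ t.Z, ∃ v ∈ t.V, ∃ w ∈ t.W, y = v * w := t.lists.decide t.rep (by decide +kernel)
theorem noncomm : ∀ a ∈ t.E1, ∀ b ∈ t.E2, Rec.Let (a * b * a⁻¹ * b⁻¹) fun c => c ∈ t.V → c = 1 :=
  t.lists.decide t.rep (by decide +kernel)
theorem pure : ∀ y ∈ t.Z, y ∈ t.V ∨ y ∈ t.W ∨ ∃ a ∈ t.E1, ∃ b ∈ t.E2, y = a * b * a⁻¹ * b⁻¹ ∧ y = b * a * b⁻¹ * a⁻¹ :=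
  fun y hy => by
    have h : ∀ y ∈ t.Z, y ∈ t.V ∨ y ∈ t.W ∨
        ∃ a ∈ t.A0, ∃ b ∈ t.B0, y = a * b * a⁻¹ * b⁻¹ ∧ y = b * a * b⁻¹ * a⁻¹ :=
      t.lists.decide t.rep (by decide +kernel)
    refine (h y hy).imp_right (Or.imp_right ?_)
    rintro ⟨a, ha, b, hb, h⟩
    exact ⟨a, t.A0_le ha, b, t.B0_le hb, h⟩
theorem toA0 : ∀ y ∈ t.E1, y ∈ t.Z ∨ ∃ p ∈ t.B0, ∃ v ∈ t.V, ∃ a ∈ t.A0, a ≠ 1 ∧ p * y * p⁻¹ = v * a :=
  t.lists.decide t.rep (by decide +kernel)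
theorem stab : ∀ p ∈ t.P, p * t.x13 * p⁻¹ ∈ t.A0 → p * t.x35 * p⁻¹ ∈ t.B0 → p ∈ t.Z :=
  t.lists.decide t.rep (by decide +kernel)
theorem coms : t.x14 = t.x13 * t.x34 * t.x13⁻¹ * t.x34⁻¹ ∧ t.z = t.x13 * t.x35 * t.x13⁻¹ * t.x35⁻¹ ∧
    t.x24 = t.x23 * t.x34 * t.x23⁻¹ * t.x34⁻¹ ∧ t.x25 = t.x23 * t.x35 * t.x23⁻¹ * t.x35⁻¹ :=
  t.lists.decide t.rep (by decide +kernel)
theorem mems : t.x13 ∈ t.A0 ∧ t.x23 ∈ t.A0 ∧ t.x35 ∈ t.B0 ∧ t.x34 ∈ t.B0 ∧ t.x14 * t.x25 ∈ t.V ∧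
    t.x14 * t.z * t.x24 ∈ t.V ∧ t.z * t.x24 ∈ t.W ∧ t.x14 * t.z * t.x25 ∈ t.W ∧ t.x14 ∈ t.Z ∧ t.z ∈ t.Z ∧
    t.x24 ∈ t.Z ∧ t.x25 ∈ t.Z :=
  t.lists.decide t.rep (by decide +kernel)
theorem nes : t.x13 ≠ 1 ∧ t.x35 ≠ 1 ∧ t.x14 * t.x25 ≠ 1 ∧ t.x14 * t.z * t.x25 ≠ 1 ∧ t.x13 ∉ t.E2 ∧ t.z ≠ 1 :=
  t.lists.decide t.rep (by decide +kernel)
theorem P_pow : ∀ p ∈ t.P, p ^ 2 ^ 2 = 1 := fun p hp => by
  have h : ∀ p ∈ t.P, p ^ 4 = 1 := t.lists.decide t.rep (by decide +kernel)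
  exact h p hp

theorem x13_mem : t.x13 ∈ t.E1 := t.A0_le t.mems.1
theorem x35_mem : t.x35 ∈ t.E2 := t.flip.x13_mem

theorem E_ne : t.E1 ≠ t.E2 := fun h => t.nes.2.2.2.2.1 (h ▸ t.x13_mem)

theorem V_ne : t.V ≠ t.W := fun h => t.nes.2.2.1 (t.VW _ t.mems.2.2.2.2.1 (h ▸ t.mems.2.2.2.2.1))

theorem Z_eq : t.Z = t.E1 ⊓ t.E2 := le_antisymm (le_inf t.Z_le1 t.Z_le2) fun x hx => t.memZ x hx.1 hx.2

theorem Z_eq' : t.Z = t.V ⊔ t.W := le_antisymm (fun y hy => by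
  obtain ⟨v, hv, w, hw, rfl⟩ := t.split y hy
  exact mul_mem (mem_sup_left hv) (mem_sup_right hw)) (sup_le t.V_le t.W_le)

theorem P_eq : t.P = t.A0 ⊔ t.B0 := by
  obtain ⟨a, b, c, d, -⟩ := t.mems
  refine le_antisymm (clos_le.2 ?_) (sup_le (t.A0_le.trans t.E1_le) (t.B0_le.trans t.E2_le))
  simp only [List.forall_mem_cons]
  exact ⟨mem_sup_left a, mem_sup_left b, mem_sup_right d, mem_sup_right c, by simp⟩

theorem P_eq' : t.P = t.E1 ⊔ t.E2 :=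
  le_antisymm (t.P_eq.le.trans (sup_le_sup t.A0_le t.B0_le)) (sup_le t.E1_le t.E2_le)

/-- The action on `Z` from the action on the generators of `P`. -/
theorem act {g a1 a2 b1 b2 : G} (h1 : g * t.x13 * g⁻¹ = a1) (h2 : g * t.x23 * g⁻¹ = a2) (h3 : g * t.x35 * g⁻¹ = b1)
    (h4 : g * t.x34 * g⁻¹ = b2) : g * t.x14 * g⁻¹ = a1 * b2 * a1⁻¹ * b2⁻¹ ∧ g * t.z * g⁻¹ = a1 * b1 * a1⁻¹ * b1⁻¹ ∧
      g * t.x24 * g⁻¹ = a2 * b2 * a2⁻¹ * b2⁻¹ ∧ g * t.x25 * g⁻¹ = a2 * b1 * a2⁻¹ * b1⁻¹ := by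
  obtain ⟨c1, c2, c3, c4⟩ := t.coms
  subst h1 h2 h3 h4
  refine ⟨?_, ?_, ?_, ?_⟩
  · rw [c1]; group
  · rw [c2]; group
  · rw [c3]; group
  · rw [c4]; group

/-- `n` normalises `E1` and `E2`. -/
def Fix (n : G) : Prop := cj n t.E1 = t.E1 ∧ cj n t.E2 = t.E2
/-- `n` exchanges `E1` and `E2`. -/
def Sw (n : G) : Prop := cj n t.E1 = t.E2 ∧ cj n t.E2 = t.E1
/-- `y` is conjugate to an involution of `V`. -/
def Vt (y : G) : Prop := ∃ x, ∃ v ∈ t.V, v ≠ 1 ∧ x * v * x⁻¹ = y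

theorem flip_Vt {y : G} : t.flip.Vt y ↔ t.Vt y := by rw [Vt, flip_V]; rfl

variable {t} {n m y : G}

theorem Fix.flip (h : t.Fix n) : t.flip.Fix n := ⟨h.2, h.1⟩
theorem Sw.flip (h : t.Sw n) : t.flip.Sw n := ⟨h.2, h.1⟩
theorem Fix.mul (h : t.Fix n) (h' : t.Fix m) : t.Fix (n * m) := ⟨cj_mul_eq h.1 h'.1, cj_mul_eq h.2 h'.2⟩
theorem Fix.inv (h : t.Fix n) : t.Fix n⁻¹ := ⟨cj_inv_eq h.1, cj_inv_eq h.2⟩
theorem Sw.inv (h : t.Sw n) : t.Sw n⁻¹ := ⟨cj_inv_eq h.2, cj_inv_eq h.1⟩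
theorem Sw.mul (h : t.Sw n) (h' : t.Sw m) : t.Fix (n * m) := ⟨cj_mul_eq h.2 h'.1, cj_mul_eq h.1 h'.2⟩
theorem Sw.mul_fix (h : t.Sw n) (h' : t.Fix m) : t.Sw (n * m) := ⟨cj_mul_eq h.1 h'.1, cj_mul_eq h.2 h'.2⟩
theorem Fix.mul_sw (h : t.Fix n) (h' : t.Sw m) : t.Sw (n * m) := ⟨cj_mul_eq h.2 h'.1, cj_mul_eq h.1 h'.2⟩
theorem Fix.not_sw (h : t.Fix n) : ¬ t.Sw n := fun h' => t.E_ne (h.1.symm.trans h'.1)
theorem Fix.Z (h : t.Fix n) : cj n t.Z = t.Z := by rw [t.Z_eq, cj_inf, h.1, h.2]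
theorem Sw.Z (h : t.Sw n) : cj n t.Z = t.Z := by rw [t.Z_eq, cj_inf, h.1, h.2, inf_comm]
theorem Fix.P (h : t.Fix n) : cj n t.P = t.P := by rw [t.P_eq', cj_sup, h.1, h.2]
theorem Sw.P (h : t.Sw n) : cj n t.P = t.P := by rw [t.P_eq', cj_sup, h.1, h.2, sup_comm]

theorem Vt.conj (h : t.Vt y) (g : G) : t.Vt (g * y * g⁻¹) := by
  obtain ⟨x, v, hv, h1, rfl⟩ := h
  exact ⟨g * x, v, hv, h1, by group⟩

theorem Vt.sq (h : t.Vt y) : y * y = 1 := by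
  obtain ⟨x, v, hv, -, rfl⟩ := h
  exact conj_sq (t.Z_sq v (t.V_le hv))

theorem Vt.ne (h : t.Vt y) : y ≠ 1 := by
  obtain ⟨x, v, -, h1, rfl⟩ := h
  exact fun e => h1 (conj_eq_one.1 e)

theorem vt_of_mem {x : G} (h : y ∈ cj x t.V) (h1 : y ≠ 1) : t.Vt y :=
  ⟨x, _, mem_cj.1 h, fun e => h1 (conj_eq_one.1 (by rwa [inv_inv] : x⁻¹ * y * x⁻¹⁻¹ = 1)), by group⟩

theorem P_two (t : Let G) : IsPGroup 2 t.P := IsPGroup.of_card (n := 8) t.genP.2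

variable [Finite G]

theorem E1_cases (h : cj n t.P = t.P) : cj n t.E1 = t.E1 ∨ cj n t.E1 = t.E2 := by
  have h1 : cj n t.E1 ≤ t.E1 ∨ cj n t.E1 ≤ t.E2 := le_or_le_of_mem fun x hx => by
    refine t.inv_mem x (h ▸ cj_mono t.E1_le hx) ?_
    obtain ⟨x, hx, rfl⟩ := hx
    rw [← map_mul, t.E1_sq x hx, map_one]
  exact h1.imp cj_eq_of_le fun h2 => eq_of_le_of_card_ge h2 (by rw [card_cj, t.genE1.2, t.genE2.2])

theorem fix_or_sw (h : cj n t.P = t.P) : t.Fix n ∨ t.Sw n := by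
  have h2 : cj n t.E2 = t.E2 ∨ cj n t.E2 = t.E1 := E1_cases (t := t.flip) (by rw [flip_P, h])
  rcases E1_cases h with h1 | h1 <;> rcases h2 with h2 | h2
  · exact .inl ⟨h1, h2⟩
  · exact absurd (cj_inj.1 (h1.trans h2.symm)) t.E_ne
  · exact absurd (cj_inj.1 (h1.trans h2.symm)) t.E_ne
  · exact .inr ⟨h1, h2⟩

theorem fix_of_E1 (h : cj n t.P = t.P) (h1 : cj n t.E1 = t.E1) : t.Fix n :=
  (fix_or_sw h).resolve_right fun h2 => t.E_ne (h1.symm.trans h2.1)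

theorem fix_of_mem (h : n ∈ t.P) : t.Fix n := by
  have h1 : ∀ p ∈ t.P, p * t.x13 * p⁻¹ ∉ t.E2 := t.lists.decide t.rep (by decide +kernel)
  exact (fix_or_sw (cj_eq_of_mem h)).resolve_right fun h2 => h1 n h (mem_of_cj h2.1 t.x13_mem)

theorem cjV_of_mem (h : n ∈ t.P) : cj n t.V = t.V :=
  cj_eq_of_le (cj_le_iff.2 fun x hx => by rwa [t.comm_Z x (t.V_le hx) n h, mul_inv_cancel_right])

theorem cjW_of_mem (h : n ∈ t.P) : cj n t.W = t.W :=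
  cj_eq_of_le (cj_le_iff.2 fun x hx => by rwa [t.comm_Z x (t.W_le hx) n h, mul_inv_cancel_right])

end Let

end Cfsg.Agent.HeS
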