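import Mathlib
import Cfsg.Agent.HeS.Bas

/-!
The conjugates of `V` in `E1` and `E2`.
-/

set_option autoImplicit false
set_option maxRecDepth 100000
set_option synthInstance.maxSize 100000
set_option synthInstance.maxHeartbeats 1000000

namespace Cfsg.Agent.HeS

open Cfsg.Agent.Spor Cfsg.Agent.Rec Cfsg.Agent.Rec.L52 Cfsg.Agent.Inv.Fz Cfsg.Agent.UT Subgroup

universe u

variable {G : Type u} [Group G]

namespace Int

variable (t : Int G)

/-- The data after the graph automorphism. -/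
noncomputable def flip : Int G where
  toLet := t.toLet.flip
  h := t.h
  w1 := t.w2
  w2 := t.w1
  L := t.L
  card_L := t.card_L
  P_le := t.flip_P ▸ t.P_le
  h_mem := t.h_mem
  w1_mem := t.w2_mem
  w2_mem := t.w1_mem
  cenV := t.flip_V ▸ t.cenV
  h3 := t.h3
  h13 := t.h35.trans (t.lists.decide t.rep (by decide +kernel) : t.x34 * t.x35 = t.x35 * t.x34)
  h23 := t.h34
  h34 := t.h23
  h35 := t.h13.trans (t.lists.decide t.rep (by decide +kernel) : t.x13 * t.x23 = t.x23 * t.x13)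
  w1_sq := t.w2_sq
  w1_13 := t.w2_35.trans (t.lists.decide t.rep (by decide +kernel) : t.x14 * t.z * t.x25 = t.x25 * t.z * t.x14)
  w1_23 := t.w2_34
  w1_35 := t.w2_13
  w2_sq := t.w1_sq
  w2_35 := t.w1_13.trans (t.lists.decide t.rep (by decide +kernel) : t.x14 * t.z * t.x25 = t.x25 * t.z * t.x14)
  w2_34 := t.w1_23
  w2_13 := t.w1_35
  ti := t.flip_V ▸ t.ti
  inn := t.flip_V ▸ t.inn
  key := by rw [t.flip_V, t.flip_Z, t.flip_P]; exact t.key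
  ex := by rw [t.flip_V, t.flip_Z]; exact t.ex
  cenZ := by rw [t.flip_Z, t.flip_P]; exact t.cenZ

theorem fP : t.flip.P = t.P := t.flip_P
theorem fZ : t.flip.Z = t.Z := t.flip_Z
theorem fV : t.flip.V = t.V := t.flip_V
theorem fW : t.flip.W = t.W := t.flip_W
theorem fVt {y : G} : t.flip.Vt y ↔ t.Vt y := t.flip_Vt

theorem V_leL : t.V ≤ t.L := fun c hc => ((t.cenV c).1 hc).1

theorem comm_V {l v : G} (hl : l ∈ t.L) (hv : v ∈ t.V) : l * v * l⁻¹ = v := by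
  rw [← ((t.cenV v).1 hv).2 l hl, mul_inv_cancel_right]

theorem cjV_le {x : G} (h : cj x t.L = t.L) : cj x t.V ≤ t.V := cj_le_iff.2 fun v hv => by
  refine (t.cenV _).2 ⟨mem_of_cj h (t.V_leL hv), fun l hl => ?_⟩
  have := ((t.cenV v).1 hv).2 _ (mem_of_cj' h hl)
  calc _ = x * (v * (x⁻¹ * l * x)) * x⁻¹ := by group
    _ = _ := by rw [this]; group

theorem inn' {x y : G} (h : t.Vt y) (hc : ∀ u ∈ cj x t.V, y * u = u * y) : y ∈ cj x t.L := by
  obtain ⟨k, v, hv, -, rfl⟩ := h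
  have := t.inn (x⁻¹ * k) v hv fun u hu => by
    have := hc _ (conj_mem_cj.2 hu)
    calc _ = x⁻¹ * (k * v * k⁻¹ * (x * u * x⁻¹)) * x := by group
      _ = _ := by rw [this]; group
  rw [mem_cj]
  convert this using 1
  group

theorem two_mem {c : G} (h : ∀ y ∈ t.Z, c * y = y * c) {k : ℕ} (hk : c ^ 2 ^ k = 1) : c ∈ t.P := by
  obtain ⟨p, hp, o, ho, hc, rfl⟩ := t.cenZ c h
  have h1 : Commute p o := (hc p hp).symm
  have h2 : o ^ 2 ^ (k + 2) = 1 := by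
    have h3 : (p * o) ^ 2 ^ (k + 2) = 1 := by rw [pow_add, pow_mul, hk, one_pow]
    rwa [h1.mul_pow, add_comm, pow_add, pow_mul, t.P_pow p hp, one_pow, one_mul, ← pow_add, add_comm] at h3
  have h4 : orderOf o = 1 :=
    Nat.Coprime.eq_one_of_dvd ((Nat.coprime_two_right.2 ho).pow_right _) (orderOf_dvd_of_pow_eq_one h2)
  rwa [orderOf_eq_one_iff.1 h4, mul_one]

theorem w1_conj : t.x35 * t.w1 * t.x35 * (t.x35 * t.w1)⁻¹ = t.w1 := by
  have h1 : t.x35⁻¹ = t.x35 := inv_eq_of_mul_eq_one_right (t.E2_sq _ t.x35_mem)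
  have h2 : t.w1⁻¹ = t.w1 := inv_eq_of_mul_eq_one_right t.w1_sq
  have h3 := t.w1_35
  rw [mul_inv_rev, h1, h2]
  calc _ = t.w1⁻¹ * (t.w1 * t.x35) ^ 3 := by rw [pow_succ, pow_two]; group
    _ = _ := by rw [h3, h2, mul_one]

variable [Finite G]

theorem cjV {x : G} (h : cj x t.L = t.L) : cj x t.V = t.V := cj_eq_of_le (t.cjV_le h)

theorem cjV_of_memL {x : G} (h : x ∈ t.L) : cj x t.V = t.V := t.cjV (cj_eq_of_mem h)

/-- Two conjugates of `V` meet trivially or coincide. -/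
theorem ti' {x k y : G} (h1 : y ≠ 1) (hx : y ∈ cj x t.V) (hk : y ∈ cj k t.V) :
    cj x t.V = cj k t.V ∧ cj x t.L = cj k t.L := by
  have h2 : cj (k⁻¹ * x) t.L = t.L := cj_eq_iff.2 (t.ti _ _ (mem_cj.1 hx)
    (fun e => h1 (conj_eq_one.1 (by rwa [inv_inv] : x⁻¹ * y * x⁻¹⁻¹ = 1))) (by
      convert mem_cj.1 hk using 1
      group))
  have h3 := t.cjV h2
  rw [← cj_cj] at h2 h3
  exact ⟨by rw [← h3, cj_cj_inv, h3], by rw [← h2, cj_cj_inv, h2]⟩

theorem ti1 {x y : G} (h1 : y ≠ 1) (hx : y ∈ cj x t.V) (hk : y ∈ t.V) : cj x t.V = t.V ∧ cj x t.L = t.L := by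
  simpa only [cj_one] using t.ti' (k := 1) h1 hx (by rwa [cj_one])

theorem P_syl {x : G} (h : t.P ≤ cj x t.L) : IsSylIn 2 t.P (cj x t.L) :=
  isSylIn_of_card h (k := 8) (m := 315) t.genP.2 (by rw [card_cj, t.card_L]; norm_num) (by norm_num)

theorem mem_P {x y : G} (h : t.P ≤ cj x t.L) (hy : y ∈ cj x t.L) (h2 : y * y = 1) (hn : cj y t.P = t.P) :
    y ∈ t.P := by
  have h8 : IsPGroup 2 (zpowers y) := IsPGroup.of_card_dvd_pow (n := 1) (by
    rw [Nat.card_zpowers]; exact orderOf_dvd_of_pow_eq_one (by rw [pow_one, pow_two, h2]))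
  exact ((t.P_syl h).eq_of_le (t.P_two.to_sup_of_normal_left' h8 (zpowers_le.2 (cj_eq_iff.1 hn)))
    (sup_le h (zpowers_le.2 hy)) le_sup_left).le (mem_sup_right (mem_zpowers _))

theorem normP {x : G} (h : cj x t.Z = t.Z) : cj x t.P = t.P := cj_eq_of_le (cj_le_iff.2 fun p hp => by
  refine t.two_mem (k := 2) (fun y hy => ?_) (by rw [conj_pow, t.P_pow p hp]; group)
  have := t.comm_Z _ (mem_of_cj' h hy) p hp
  calc _ = x * (p * (x⁻¹ * y * x)) * x⁻¹ := by group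
    _ = _ := by rw [this]; group)

theorem exists_norm {x y : G} (h1 : y ≠ 1) (hx : y ∈ cj x t.V) (hy : y ∈ t.Z) :
    ∃ k, cj k t.P = t.P ∧ cj k t.V = cj x t.V ∧ cj k t.L = cj x t.L := by
  have h2 : t.P ≤ cj x t.L := t.key x _ (mem_cj.1 hx)
    (fun e => h1 (conj_eq_one.1 (by rwa [inv_inv] : x⁻¹ * y * x⁻¹⁻¹ = 1))) (by
      convert hy using 1
      group)
  obtain ⟨l, hl, h3⟩ := (t.P_syl h2).exists_cj_eq ((by simpa only [cj_one] using t.P_syl (x := 1) (by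
    rw [cj_one]; exact t.P_le) : IsSylIn 2 t.P t.L).cj x)
  have h4 : l * x = x * (x⁻¹ * l * x) := by group
  refine ⟨l * x, by rw [← cj_cj, h3], ?_, ?_⟩
  · rw [h4, ← cj_cj, t.cjV_of_memL (mem_cj.1 hl)]
  · rw [h4, ← cj_cj, cj_eq_of_mem (mem_cj.1 hl)]

theorem fus {y : G} (h : t.Vt y) (hy : y ∈ t.Z) : y ∈ t.V ∨ y ∈ t.W := by
  have h1 := h.ne
  obtain ⟨x, v, hv, -, rfl⟩ := h
  obtain ⟨k, h2, h3, -⟩ := t.exists_norm h1 (conj_mem_cj.2 hv) hy
  generalize hy' : x * v * x⁻¹ = y at h1 hy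
  have h4 : k⁻¹ * y * k ∈ t.V := mem_cj.1 (by rw [h3, ← hy']; exact conj_mem_cj.2 hv)
  rcases t.pure y hy with h5 | h5 | ⟨a, ha, b, hb, h5, h6⟩
  · exact .inl h5
  · exact .inr h5
  exfalso
  refine h1 (conj_eq_one.1 (?_ : k⁻¹ * y * k⁻¹⁻¹ = 1))
  rw [inv_inv]
  rcases Let.fix_or_sw h2 with h7 | h7
  · have := t.noncomm _ (mem_of_cj' h7.1 ha) _ (mem_of_cj' h7.2 hb)
    rw [let_iff] at this
    convert this (by convert h4 using 1; rw [h5]; group) using 1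
    rw [h5]; group
  · have := t.noncomm _ (mem_of_cj' h7.1 hb) _ (mem_of_cj' h7.2 ha)
    rw [let_iff] at this
    convert this (by convert h4 using 1; rw [h6]; group) using 1
    rw [h6]; group

theorem exists_g : ∃ g, cj g t.P = t.P ∧ cj g t.V = t.W := by
  obtain ⟨x, v, hv, h1, h2⟩ := t.ex
  have h0 : x * v * x⁻¹ ≠ 1 := fun e => h2 (e ▸ one_mem _)
  obtain ⟨k, h3, h4, -⟩ := t.exists_norm h0 (conj_mem_cj.2 hv) h1
  have hZ : cj k t.Z = t.Z := (Let.fix_or_sw h3).elim Let.Fix.Z Let.Sw.Z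
  refine ⟨k, h3, eq_of_le_of_card_ge (fun y hy => ?_) (by rw [card_cj, t.genV.2, t.genW.2])⟩
  by_cases h5 : y = 1
  · exact h5 ▸ one_mem _
  refine (t.fus (Let.vt_of_mem hy h5) (hZ ▸ cj_mono t.V_le hy)).resolve_left fun h6 => h2 ?_
  rw [← (t.ti1 h5 hy h6).1, h4]
  exact conj_mem_cj.2 hv

/-- An element normalising `P` and carrying `V` to `W`. -/
noncomputable def g : G := t.exists_g.choose

theorem gP : cj t.g t.P = t.P := t.exists_g.choose_spec.1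
theorem gV : cj t.g t.V = t.W := t.exists_g.choose_spec.2
theorem P_leg : t.P ≤ cj t.g t.L := t.gP ▸ cj_mono t.P_le

theorem vt_W {y : G} (h : y ∈ t.W) (h1 : y ≠ 1) : t.Vt y := Let.vt_of_mem (t.gV ▸ h) h1

omit [Finite G] in
theorem vt_V {y : G} (h : y ∈ t.V) (h1 : y ≠ 1) : t.Vt y := ⟨1, y, h, h1, by group⟩

theorem tiW {x y : G} (h1 : y ≠ 1) (hx : y ∈ cj x t.V) (hk : y ∈ t.W) :
    cj x t.V = t.W ∧ cj x t.L = cj t.g t.L := by
  simpa only [t.gV] using t.ti' (k := t.g) h1 hx (by rwa [t.gV])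

/-- A conjugate of `V` meeting `Z` is `V` or `W`. -/
theorem V_or_W {x y : G} (h1 : y ≠ 1) (hx : y ∈ cj x t.V) (hy : y ∈ t.Z) : cj x t.V = t.V ∨ cj x t.V = t.W :=
  (t.fus (Let.vt_of_mem hx h1) hy).imp (fun h => (t.ti1 h1 hx h).1) fun h => (t.tiW h1 hx h).1

/-- An element normalising `Z` fixes or exchanges `V` and `W`. -/
theorem VW_cases {x : G} (h : cj x t.Z = t.Z) :
    (cj x t.V = t.V ∧ cj x t.W = t.W) ∨ (cj x t.V = t.W ∧ cj x t.W = t.V) := by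
  obtain ⟨-, -, -, -, m1, -, -, m2, -⟩ := t.mems
  obtain ⟨-, -, n1, n2, -⟩ := t.nes
  have h1 := t.V_or_W (x := x) (fun e => n1 (conj_eq_one.1 e)) (conj_mem_cj.2 m1) (mem_of_cj h (t.V_le m1))
  have h2 : cj x t.W = t.V ∨ cj x t.W = t.W := by
    have := t.V_or_W (x := x * t.g) (fun e => n2 (conj_eq_one.1 e)) (by
      rw [← cj_cj, t.gV]; exact conj_mem_cj.2 m2) (mem_of_cj h (t.W_le m2))
    rwa [← cj_cj, t.gV] at this
  rcases h1 with h1 | h1 <;> rcases h2 with h2 | h2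
  · exact absurd (cj_inj.1 (h1.trans h2.symm)) t.V_ne
  · exact .inl ⟨h1, h2⟩
  · exact .inr ⟨h1, h2⟩
  · exact absurd (cj_inj.1 (h1.trans h2.symm)) t.V_ne

theorem fix_VW {x : G} (h : cj x t.Z = t.Z) (hV : cj x t.V = t.V) : cj x t.W = t.W :=
  (t.VW_cases h).elim And.right fun h1 => absurd (hV.symm.trans h1.1) t.V_ne

theorem fix_WV {x : G} (h : cj x t.Z = t.Z) (hW : cj x t.W = t.W) : cj x t.V = t.V :=
  (t.VW_cases h).elim And.left fun h1 => absurd (h1.2.symm.trans hW) t.V_ne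

theorem gW : cj t.g t.W = t.V :=
  (t.VW_cases ((Let.fix_or_sw t.gP).elim Let.Fix.Z Let.Sw.Z)).elim
    (fun h => absurd (h.1.symm.trans t.gV) t.V_ne) And.right

theorem w1A : cj t.w1 t.A0 = t.W := by
  obtain ⟨-, -, -, -, -, -, m1, m2, -⟩ := t.mems
  refine eq_of_le_of_card_ge (cj_clos_le ?_) (by rw [card_cj, t.genA0.2, t.genW.2])
  simp only [List.forall_mem_cons]
  exact ⟨t.w1_13 ▸ m2, t.w1_23 ▸ m1, by simp⟩

theorem w1W : cj t.w1 t.W = t.A0 := by rw [← t.w1A, cj_cj, t.w1_sq, cj_one]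

theorem w1E : cj t.w1 t.E1 = t.E1 := by
  have h : ∀ y ∈ t.E1, ∃ v ∈ t.V, ∃ w ∈ t.W, ∃ a ∈ t.A0, y = v * w * a := t.lists.decide t.rep (by decide +kernel)
  refine cj_eq_of_le (cj_le_iff.2 fun y hy => ?_)
  obtain ⟨v, hv, w, hw, a, ha, rfl⟩ := h y hy
  rw [← conj_mul, ← conj_mul, t.comm_V t.w1_mem hv]
  exact mul_mem (mul_mem (t.Z_le1 (t.V_le hv)) (t.A0_le (mem_of_cj t.w1W hw))) (t.Z_le1 (t.W_le (mem_of_cj t.w1A ha)))

theorem cjA : cj (t.w1 * t.g) t.V = t.A0 := cj_mul_eq t.w1W t.gV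

theorem E1_leA : t.E1 ≤ cj (t.w1 * t.g) t.L := by
  rw [← cj_cj, ← t.w1E]
  exact cj_mono (t.E1_le.trans t.P_leg)

theorem vt_A {y : G} (h : y ∈ t.A0) (h1 : y ≠ 1) : t.Vt y := Let.vt_of_mem (t.cjA ▸ h) h1

/-- The conjugates of involutions of `V` in `E1`. -/
theorem pt {y : G} (h : t.Vt y) (hy : y ∈ t.E1) : y ∈ t.V ∨ y ∈ t.W ∨ ∃ p ∈ t.B0, p * y * p⁻¹ ∈ t.A0 := by
  rcases t.toA0 y hy with h1 | ⟨p, hp, v, hv, a, ha, h1, h2⟩
  · exact (t.fus h h1).imp_right .inl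
  refine .inr (.inr ⟨p, hp, ?_⟩)
  have h3 := (h.conj p).conj t.w1
  have h4 := mem_of_cj t.w1A ha
  rw [h2, ← conj_mul, t.comm_V t.w1_mem hv] at h3
  rcases t.fus h3 (mul_mem (t.V_le hv) (t.W_le h4)) with h5 | h5
  · exact absurd (conj_eq_one.1 (t.VW _ ((mul_mem_cancel_left hv).1 h5) h4)) h1
  · rwa [h2, t.VW v hv ((mul_mem_cancel_right h4).1 h5), one_mul]

/-- A conjugate of `V` meeting `E1` outside `Z`. -/
theorem ptA {x y : G} (hx : y ∈ cj x t.V) (hy : y ∈ t.E1) (hZ : y ∉ t.Z) :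
    ∃ p ∈ t.B0, cj (p * x) t.V = t.A0 ∧ cj (p * x) t.L = cj (t.w1 * t.g) t.L := by
  have h1 : y ≠ 1 := fun e => hZ (e ▸ one_mem _)
  rcases t.pt (Let.vt_of_mem hx h1) hy with h | h | ⟨p, hp, h⟩
  · exact absurd (t.V_le h) hZ
  · exact absurd (t.W_le h) hZ
  refine ⟨p, hp, ?_⟩
  rw [← t.cjA] at h ⊢
  exact t.ti' (fun e => h1 (conj_eq_one.1 e)) (by rw [← cj_cj]; exact conj_mem_cj.2 hx) h

theorem vt_w1 : t.Vt t.w1 := by
  have h : t.Vt t.x35 := t.fVt.1 (t.flip.vt_A t.flip.mems.1 t.nes.2.1)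
  exact t.w1_conj ▸ h.conj (t.x35 * t.w1)

theorem hA : cj t.h t.A0 = t.A0 := by
  refine cj_eq_of_le (cj_clos_le ?_)
  simp only [List.forall_mem_cons]
  exact ⟨t.h13 ▸ mul_mem t.mems.1 t.mems.2.1, t.h23 ▸ t.mems.1, by simp⟩

theorem hB : cj t.h t.B0 = t.B0 := t.flip.hA

theorem hP : cj t.h t.P = t.P := by rw [t.P_eq, cj_sup, t.hA, t.hB]

theorem fix_of_A {x : G} (hA : cj x t.A0 = t.A0) (hB : cj x t.B0 = t.B0) : t.Fix x :=
  (Let.fix_or_sw (by rw [t.P_eq, cj_sup, hA, hB])).resolve_right fun h => by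
    have h1 := mem_of_cj hA t.mems.1
    exact t.nes.1 (conj_eq_one.1 (t.A0Z _ h1 (t.memZ _ (t.A0_le h1) (mem_of_cj h.1 t.x13_mem))))

theorem hFix : t.Fix t.h := t.fix_of_A t.hA t.hB

theorem hW : cj t.h t.W = t.W := t.fix_VW t.hFix.Z (t.cjV_of_memL t.h_mem)

omit [Finite G] in
theorem h_fpf : ∀ w ∈ t.W, t.h * w * t.h⁻¹ = w → w = 1 := by
  obtain ⟨c1, c2, c3, c4⟩ := t.act t.h13 t.h23 t.h35 t.h34
  have h1 : t.h * (t.z * t.x24) * t.h⁻¹ = t.z * t.x24 * (t.x14 * t.z * t.x25) := by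
    rw [← conj_mul, c2, c3]; exact t.lists.decide t.rep (by decide +kernel)
  have h2 : t.h * (t.x14 * t.z * t.x25) * t.h⁻¹ = t.z * t.x24 := by
    rw [← conj_mul, ← conj_mul, c1, c2, c4]; exact t.lists.decide t.rep (by decide +kernel)
  have h3 : ∀ w ∈ t.W, w = 1 ∨ w = t.z * t.x24 ∨ w = t.x14 * t.z * t.x25 ∨ w = t.z * t.x24 * (t.x14 * t.z * t.x25) :=
    t.lists.decide t.rep (by decide +kernel)
  intro w hw h
  rcases h3 w hw with h4 | rfl | rfl | rfl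
  · exact h4
  · rw [h1] at h
    exact absurd h (t.lists.decide t.rep (by decide +kernel))
  · rw [h2] at h
    exact absurd h (t.lists.decide t.rep (by decide +kernel))
  · rw [← conj_mul, h1, h2] at h
    exact absurd h (t.lists.decide t.rep (by decide +kernel))

end Int

end Cfsg.Agent.HeS
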