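import Mathlib
import Cfsg.Agent.HeS.Fus

/-!
Construction of the letters `x45` and `x12`.
-/

set_option autoImplicit false
set_option maxRecDepth 100000
set_option synthInstance.maxSize 100000
set_option synthInstance.maxHeartbeats 1000000

namespace Cfsg.Agent.HeS

open Cfsg.Agent.Spor Cfsg.Agent.Rec Cfsg.Agent.Rec.L52 Cfsg.Agent.Inv.Fz Cfsg.Agent.UT Subgroup

universe u

variable {G : Type u} [Group G]

/-- The commutators of `b` with `E` take at most four values. -/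
def Few (E : Subgroup G) (b : G) : Prop :=
  cj b E = E ∧ ∃ u u', ∀ e ∈ E, Rec.Let (b * e * b⁻¹ * e⁻¹) fun c => c = 1 ∨ c = u ∨ c = u' ∨ c = u * u'

theorem Few.conj {E : Subgroup G} {b : G} (h : Few E b) (k : G) : Few (cj k E) (k * b * k⁻¹) := by
  obtain ⟨h1, u, u', h2⟩ := h
  refine ⟨by rw [cj_cj, inv_mul_cancel_right, ← cj_cj, h1], k * u * k⁻¹, k * u' * k⁻¹, ?_⟩
  rintro _ ⟨e, he, rfl⟩
  have h3 := h2 e he
  rw [let_iff] at h3 ⊢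
  have h4 : k * b * k⁻¹ * (MulAut.conj k).toMonoidHom e * (k * b * k⁻¹)⁻¹ * ((MulAut.conj k).toMonoidHom e)⁻¹ =
      k * (b * e * b⁻¹ * e⁻¹) * k⁻¹ := by simp [mul_assoc]
  rw [h4]
  rcases h3 with h | h | h | h <;> rw [h] <;> simp [mul_assoc]

theorem Few.mem {E Z : Subgroup G} {b : G} (h : Few E b) {e1 e2 : G} (h1 : e1 ∈ E) (h2 : e2 ∈ E)
    (m1 : b * e1 * b⁻¹ * e1⁻¹ ∈ Z) (m2 : b * e2 * b⁻¹ * e2⁻¹ ∈ Z) (n1 : b * e1 * b⁻¹ * e1⁻¹ ≠ 1)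
    (n2 : b * e2 * b⁻¹ * e2⁻¹ ≠ 1) (n : b * e1 * b⁻¹ * e1⁻¹ ≠ b * e2 * b⁻¹ * e2⁻¹) :
    ∀ e ∈ E, b * e * b⁻¹ * e⁻¹ ∈ Z := by
  obtain ⟨-, u, u', h3⟩ := h
  simp only [let_iff] at h3
  have h4 : u ∈ Z ∧ u' ∈ Z := by
    rcases (h3 e1 h1).resolve_left n1 with a | a | a <;> rcases (h3 e2 h2).resolve_left n2 with c | c | c <;>
      rw [a] at m1 n <;> rw [c] at m2 n
    · exact absurd rfl n
    · exact ⟨m1, m2⟩
    · exact ⟨m1, (mul_mem_cancel_left m1).1 m2⟩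
    · exact ⟨m2, m1⟩
    · exact absurd rfl n
    · exact ⟨(mul_mem_cancel_right m1).1 m2, m1⟩
    · exact ⟨m2, (mul_mem_cancel_left m2).1 m1⟩
    · exact ⟨(mul_mem_cancel_right m2).1 m1, m2⟩
    · exact absurd rfl n
  intro e he
  rcases h3 e he with h | h | h | h <;> rw [h]
  exacts [one_mem _, h4.1, h4.2, mul_mem h4.1 h4.2]

namespace Int

variable (t : Int G)

/-- The action of the letter `x45`. -/
structure T2 (s : G) : Prop where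
  sq : s * s = 1
  a13 : s * t.x13 * s⁻¹ = t.x13
  a23 : s * t.x23 * s⁻¹ = t.x23
  a35 : s * t.x35 * s⁻¹ = t.x35
  a34 : s * t.x34 * s⁻¹ = t.x34 * t.x35
  vt : ∃ p ∈ t.P, t.Vt (p * s)

/-- A first approximation. -/
structure T1 (s : G) : Prop where
  sq : s * s ∈ t.Z
  a : ∀ a ∈ t.A0, s * a * s⁻¹ = a
  b : cj s t.B0 = t.B0
  ne : ¬ ∀ y ∈ t.Z, s * y * s⁻¹ = y
  vt : ∃ p ∈ t.P, t.Vt (p * s)

theorem actZ {s : G} (a13 : s * t.x13 * s⁻¹ = t.x13) (a23 : s * t.x23 * s⁻¹ = t.x23)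
    (a35 : s * t.x35 * s⁻¹ = t.x35) (a34 : s * t.x34 * s⁻¹ = t.x34 * t.x35) :
    s * t.x14 * s⁻¹ = t.x14 * t.z ∧ s * t.z * s⁻¹ = t.z ∧ s * t.x24 * s⁻¹ = t.x24 * t.x25 ∧
      s * t.x25 * s⁻¹ = t.x25 := by
  obtain ⟨c1, c2, c3, c4⟩ := t.act a13 a23 a35 a34
  rw [c1, c2, c3, c4]
  exact t.lists.decide t.rep (by decide +kernel)

theorem fixZ {s : G} (a13 : s * t.x13 * s⁻¹ = t.x13) (a23 : s * t.x23 * s⁻¹ = t.x23)
    (a35 : s * t.x35 * s⁻¹ = t.x35) (a34 : s * t.x34 * s⁻¹ = t.x34 * t.x35) {u : G} (hu : u ∈ t.Z)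
    (h : s * u * s⁻¹ = u) : u = 1 ∨ u = t.z ∨ u = t.x25 ∨ u = t.z * t.x25 := by
  obtain ⟨c1, c2, c3, c4⟩ := t.actZ a13 a23 a35 a34
  have h1 : ∀ u ∈ t.Z, ∃ d ∈ t.Z, (d = 1 ∨ d = t.z ∨ d = t.x25 ∨ d = t.z * t.x25) ∧
      (u = d ∨ u = d * t.x14 ∨ u = d * t.x24 ∨ u = d * (t.x14 * t.x24)) := t.lists.decide t.rep (by decide +kernel)
  obtain ⟨d, -, h2, h3⟩ := h1 u hu
  have h4 : s * d * s⁻¹ = d := by
    rcases h2 with rfl | rfl | rfl | rfl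
    exacts [by group, c2, c4, by rw [← conj_mul, c2, c4]]
  rcases h3 with rfl | rfl | rfl | rfl
  · exact h2
  · rw [← conj_mul, h4, c1, mul_left_cancel_iff] at h
    exact absurd h (t.lists.decide t.rep (by decide +kernel))
  · rw [← conj_mul, h4, c3, mul_left_cancel_iff] at h
    exact absurd h (t.lists.decide t.rep (by decide +kernel))
  · rw [← conj_mul, h4, ← conj_mul, c1, c3, mul_left_cancel_iff] at h
    exact absurd h (t.lists.decide t.rep (by decide +kernel))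

theorem conjZ {s c x : G} (hc : c ∈ t.Z) (hx : x ∈ t.P) : s * c * x * (s * c)⁻¹ = s * x * s⁻¹ := by
  rw [mul_assoc s c x, ← t.comm_Z c hc x hx]; group

variable [Finite G]

theorem few_w1 : Few t.E1 t.w1 := by
  refine ⟨t.w1E, t.w1 * t.x13 * t.w1⁻¹ * t.x13, t.w1 * t.x23 * t.w1⁻¹ * t.x23, fun e he => ?_⟩
  have h0 : ∀ y ∈ t.E1, ∃ v ∈ t.V, ∃ a ∈ t.A0, ∃ w ∈ t.W, y = v * a * w := t.lists.decide t.rep (by decide +kernel)
  have h1 : ∀ v ∈ t.V, ∀ a ∈ t.A0, ∀ w ∈ t.W, ∀ a' ∈ t.A0, ∀ w' ∈ t.W,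
      v * w' * a' * (v * a * w)⁻¹ = w' * w * (a * a') := t.lists.decide t.rep (by decide +kernel)
  have h2 : ∀ a ∈ t.A0, a = 1 ∨ a = t.x13 ∨ a = t.x23 ∨ a = t.x13 * t.x23 := t.lists.decide t.rep (by decide +kernel)
  obtain ⟨v, hv, a, ha, w, hw, rfl⟩ := h0 e he
  have h3 := mem_of_cj t.w1W hw
  have h4 : t.w1 * (a * (t.w1 * w * t.w1⁻¹)) * t.w1⁻¹ = t.w1 * a * t.w1⁻¹ * w := by
    rw [← conj_mul, mul_left_cancel_iff]
    calc _ = t.w1 * t.w1 * w * (t.w1 * t.w1)⁻¹ := by group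
      _ = _ := by rw [t.w1_sq]; group
  rw [let_iff, ← conj_mul, ← conj_mul, t.comm_V t.w1_mem hv, h1 v hv a ha w hw _ h3 _ (mem_of_cj t.w1A ha), ← h4]
  rcases h2 _ (mul_mem ha h3) with h | h | h | h <;> rw [h]
  · simp
  · simp
  · simp
  · refine .inr (.inr (.inr ?_))
    rw [← conj_mul, t.w1_13, t.w1_23]
    exact t.lists.decide t.rep (by decide +kernel)

theorem exists_b : ∃ b, t.Vt b ∧ Few t.E1 b ∧ ∀ y ∈ cj b t.V, y ∈ t.Z → y = 1 := by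
  have key : ∀ (w : G) (E U : Subgroup G), t.Vt w → Few E w → cj w t.W = U → (∀ y ∈ U, y ∈ t.Z → y = 1) →
      cj t.g E = t.E1 → cj t.g t.Z = t.Z → ∃ b, t.Vt b ∧ Few t.E1 b ∧ ∀ y ∈ cj b t.V, y ∈ t.Z → y = 1 := by
    intro w E U h1 h2 h3 h4 h5 h6
    refine ⟨t.g * w * t.g⁻¹, h1.conj _, h5 ▸ h2.conj _, fun y hy hZ => ?_⟩
    rw [← t.gW, cj_cj, inv_mul_cancel_right, ← cj_cj, h3] at hy
    exact conj_eq_one.1 (by rw [inv_inv]; exact h4 _ (mem_cj.1 hy) (mem_of_cj' h6 hZ) : t.g⁻¹ * y * t.g⁻¹⁻¹ = 1)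
  rcases Let.fix_or_sw t.gP with h | h
  · exact key _ _ _ t.vt_w1 t.few_w1 t.w1W t.A0Z h.1 h.Z
  · exact key t.w2 t.E2 t.B0 (t.fVt.1 t.flip.vt_w1) t.flip.few_w1 (t.fW ▸ t.flip.w1W) (t.fZ ▸ t.flip.A0Z) h.2 h.Z

theorem exists_x : ∃ x, t.Vt x ∧ Few t.E1 x ∧ cj x t.V = t.W ∧ cj x t.W = t.V := by
  obtain ⟨b, h1, h2, h3⟩ := t.exists_b
  obtain ⟨-, -, -, -, m1, -⟩ := t.mems
  have h4 : b * (t.x14 * t.x25) * b⁻¹ ∈ cj b t.V := conj_mem_cj.2 m1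
  obtain ⟨p, hp, h5, -⟩ := t.ptA h4 (mem_of_cj h2.1 (t.Z_le1 (t.V_le m1)))
    fun h => t.nes.2.2.1 (conj_eq_one.1 (h3 _ h4 h))
  have hp' := t.E2_le (t.B0_le hp)
  have h6 : cj (t.w1 * p) t.V = t.V := t.cjV_of_memL (mul_mem t.w1_mem (t.P_le hp'))
  have h7 : cj (t.w1 * p) (cj b t.V) = t.W := by rw [← t.w1A, ← h5, cj_cj, cj_cj, mul_assoc]
  have h8 : cj (t.w1 * p) t.E1 = t.E1 := cj_mul_eq t.w1E (Let.fix_of_mem hp').1
  refine ⟨t.w1 * p * b * (t.w1 * p)⁻¹, h1.conj _, h8 ▸ h2.conj _, ?_, ?_⟩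
  · rw [← cj_cj, cj_inv_eq h6, ← cj_cj, h7]
  · rw [← cj_cj, cj_inv_eq h7, cj_cj, mul_assoc, h1.sq, mul_one, h6]

/-- An element normalising `E1` and `E2` can be adjusted to normalise `A0` and `B0`. -/
theorem adjust {x : G} (h : t.Fix x) : ∃ q ∈ t.P, cj (q * x) t.A0 = t.A0 ∧ cj (q * x) t.B0 = t.B0 := by
  have key : ∀ (t : Int G) {x : G}, t.Fix x → ∃ p ∈ t.B0, cj (p * x) t.A0 = t.A0 := fun t x h => by
    obtain ⟨p, hp, h1, -⟩ := t.ptA (x := x * (t.w1 * t.g)) (by rw [← cj_cj, t.cjA]; exact conj_mem_cj.2 t.mems.1)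
      (mem_of_cj h.1 t.x13_mem) fun h2 => t.nes.1 (t.A0Z _ t.mems.1 (by simpa [mul_assoc] using mem_of_cj' h.Z h2))
    exact ⟨p, hp, by rwa [← mul_assoc, ← cj_cj, t.cjA] at h1⟩
  obtain ⟨p, hp, h1⟩ := key t h
  have hp' := t.E2_le (t.B0_le hp)
  obtain ⟨p', hq, h2⟩ := key t.flip ((Let.fix_of_mem hp').mul h).flip
  refine ⟨p' * p, mul_mem (t.E1_le (t.A0_le hq)) hp', ?_, by rw [mul_assoc]; exact h2⟩
  rw [mul_assoc, ← cj_cj, h1]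
  exact cj_eq_of_mem hq

theorem exists_T1 : ∃ s, t.T1 s := by
  obtain ⟨x, h1, h2, h3, h4⟩ := t.exists_x
  have hZ : cj x t.Z = t.Z := by rw [t.Z_eq', cj_sup, h3, h4, sup_comm]
  have hF : t.Fix x := Let.fix_of_E1 (t.normP hZ) h2.1
  obtain ⟨-, -, -, -, m1, m2, -⟩ := t.mems
  have h5 : ∀ w ∈ t.W, ∀ w' ∈ t.W, w * (t.x14 * t.x25)⁻¹ ≠ 1 ∧ w' * (t.x14 * t.z * t.x24)⁻¹ ≠ 1 ∧
      w * (t.x14 * t.x25)⁻¹ ≠ w' * (t.x14 * t.z * t.x24)⁻¹ := t.lists.decide t.rep (by decide +kernel)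
  obtain ⟨n1, n2, n3⟩ := h5 _ (mem_of_cj h3 m1) _ (mem_of_cj h3 m2)
  have h6 := h2.mem (Z := t.Z) (t.Z_le1 (t.V_le m1)) (t.Z_le1 (t.V_le m2))
    (mul_mem (mem_of_cj hZ (t.V_le m1)) (inv_mem (t.V_le m1)))
    (mul_mem (mem_of_cj hZ (t.V_le m2)) (inv_mem (t.V_le m2))) n1 n2 n3
  obtain ⟨q, hq, h7, h8⟩ := t.adjust hF
  have h9 : q * x * (q * x) ∈ t.P := by
    have : q * x * (q * x) = q * (x * q * x⁻¹) * (x * x) := by group
    rw [this, h1.sq, mul_one]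
    exact mul_mem hq (mem_of_cj hF.P hq)
  refine ⟨q * x, t.stab _ h9 (mem_of_cj (cj_mul_eq h7 h7) t.mems.1) (mem_of_cj (cj_mul_eq h8 h8) t.mems.2.2.1),
    fun a ha => ?_, h8, fun h => n1 ?_, q⁻¹, inv_mem hq, by rwa [inv_mul_cancel_left]⟩
  · have h10 : ∀ q ∈ t.P, ∀ a ∈ t.A0, q * a * q⁻¹ * a⁻¹ ∈ t.Z := t.lists.decide t.rep (by decide +kernel)
    refine mul_inv_eq_one.1 (t.A0Z _ (mul_mem (mem_of_cj h7 ha) (inv_mem ha)) ?_)
    have : q * x * a * (q * x)⁻¹ * a⁻¹ = q * (x * a * x⁻¹ * a⁻¹) * q⁻¹ * (q * a * q⁻¹ * a⁻¹) := by group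
    rw [this]
    exact mul_mem (mem_of_cj (Let.fix_of_mem hq).Z (h6 a (t.A0_le ha))) (h10 q hq a ha)
  · have h10 := h _ (t.V_le m1)
    have h11 := t.comm_Z _ (mem_of_cj hZ (t.V_le m1)) q hq
    rw [mul_inv_eq_one]
    calc _ = q * (x * (t.x14 * t.x25) * x⁻¹) * q⁻¹ := by rw [h11, mul_inv_cancel_right]
      _ = q * x * (t.x14 * t.x25) * (q * x)⁻¹ := by group
      _ = _ := h10

variable {t}

theorem T1.fix {s : G} (h : t.T1 s) : t.Fix s :=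
  t.fix_of_A (cj_eq_of_le (cj_le_iff.2 fun a ha => by rwa [h.a a ha])) h.b

theorem T1.conj {s k : G} (h : t.T1 s) (hA : cj k t.A0 = t.A0) (hB : cj k t.B0 = t.B0) : t.T1 (k * s * k⁻¹) := by
  have hF := t.fix_of_A hA hB
  obtain ⟨p, hp, h1⟩ := h.vt
  refine ⟨by rw [conj_mul]; exact mem_of_cj hF.Z h.sq, fun a ha => ?_, cj_mul_eq (cj_mul_eq hB h.b) (cj_inv_eq hB),
    fun h2 => h.ne fun y hy => ?_, k * p * k⁻¹, mem_of_cj hF.P hp, by rw [conj_mul]; exact h1.conj k⟩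
  · calc _ = k * (s * (k⁻¹ * a * k) * s⁻¹) * k⁻¹ := by group
      _ = _ := by rw [h.a _ (mem_of_cj' hA ha)]; group
  · calc _ = k⁻¹ * (k * s * k⁻¹ * (k * y * k⁻¹) * (k * s * k⁻¹)⁻¹) * k := by group
      _ = _ := by rw [h2 _ (mem_of_cj hF.Z hy)]; group

theorem T1.exists_fix {s : G} (h : t.T1 s) : ∃ s, t.T1 s ∧ s * t.x35 * s⁻¹ = t.x35 := by
  have h1 : ∀ b ∈ t.B0, b = 1 ∨ b = t.x35 ∨ b = t.x34 ∨ b = t.x34 * t.x35 := t.lists.decide t.rep (by decide +kernel)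
  have h2 : s * (s * t.x35 * s⁻¹) * s⁻¹ = t.x35 := by
    have := t.comm_Z _ h.sq _ (t.E2_le t.x35_mem)
    calc _ = s * s * t.x35 * (s * s)⁻¹ := by group
      _ = _ := by rw [← this]; group
  rcases h1 _ (mem_of_cj h.b t.mems.2.2.1) with h3 | h3 | h3 | h3
  · exact absurd (conj_eq_one.1 h3) t.nes.2.1
  · exact ⟨s, h, h3⟩
  · rw [h3] at h2
    refine ⟨t.h⁻¹ * s * t.h⁻¹⁻¹, h.conj (cj_inv_eq t.hA) (cj_inv_eq t.hB), ?_⟩
    have h4 : s * (t.x34 * t.x35) * s⁻¹ = t.x34 * t.x35 := by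
      rw [← conj_mul, h2, h3]; exact t.lists.decide t.rep (by decide +kernel)
    calc _ = t.h⁻¹ * (s * (t.h * t.x35 * t.h⁻¹) * s⁻¹) * t.h := by group
      _ = _ := by rw [t.h35, h4, ← t.h35]; group
  · rw [h3, ← conj_mul, h3, ← eq_mul_inv_iff_mul_eq,
      (t.lists.decide t.rep (by decide +kernel) : t.x35 * (t.x34 * t.x35)⁻¹ = t.x34)] at h2
    refine ⟨t.h * s * t.h⁻¹, h.conj t.hA t.hB, ?_⟩
    rw [← t.h34]
    calc _ = t.h * (s * t.x34 * s⁻¹) * t.h⁻¹ := by group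
      _ = _ := by rw [h2]

variable (t)

theorem exists_T2 : ∃ s, t.T2 s := by
  obtain ⟨s, h⟩ := t.exists_T1
  obtain ⟨s, h, a35⟩ := h.exists_fix
  have a13 := h.a _ t.mems.1
  have a23 := h.a _ t.mems.2.1
  have a34 : s * t.x34 * s⁻¹ = t.x34 * t.x35 := by
    have h1 : ∀ b ∈ t.B0, b = 1 ∨ b = t.x35 ∨ b = t.x34 ∨ b = t.x34 * t.x35 :=
      t.lists.decide t.rep (by decide +kernel)
    rcases h1 _ (mem_of_cj h.b t.mems.2.2.2.1) with h3 | h3 | h3 | h3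
    · exact absurd (conj_eq_one.1 h3) (t.lists.decide t.rep (by decide +kernel))
    · rw [← a35, mul_left_inj, mul_right_inj] at h3
      exact absurd h3 (t.lists.decide t.rep (by decide +kernel))
    · refine absurd (fun y hy => ?_) h.ne
      have : ∀ r ∈ t.P, s * r = r * s := commute_clos (by
        simp only [List.forall_mem_cons]
        exact ⟨mul_inv_eq_iff_eq_mul.1 a13, mul_inv_eq_iff_eq_mul.1 a23, mul_inv_eq_iff_eq_mul.1 h3,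
          mul_inv_eq_iff_eq_mul.1 a35, by simp⟩)
      rw [this y (t.Z_le hy), mul_inv_cancel_right]
    · exact h3
  obtain ⟨c1, -, c3, -⟩ := t.actZ a13 a23 a35 a34
  obtain ⟨p, hp, h1⟩ := h.vt
  have key : ∀ c ∈ t.Z, s * c * s⁻¹ * (s * s) * c = 1 → ∃ s, t.T2 s := fun c hc h2 => by
    refine ⟨s * c, by rw [← h2]; group, ?_, ?_, ?_, ?_, p * (s * c * s⁻¹)⁻¹,
      mul_mem hp (inv_mem (t.Z_le (mem_of_cj h.fix.Z hc))), ?_⟩
    · rwa [t.conjZ hc (t.E1_le t.x13_mem)]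
    · rwa [t.conjZ hc (t.E1_le (t.A0_le t.mems.2.1))]
    · rwa [t.conjZ hc (t.E2_le t.x35_mem)]
    · rwa [t.conjZ hc (t.E2_le (t.B0_le t.mems.2.2.2.1))]
    · convert h1 using 1
      group
  obtain ⟨-, -, -, -, -, -, -, -, m1, -, m2, -⟩ := t.mems
  rcases t.fixZ a13 a23 a35 a34 h.sq (by group) with h2 | h2 | h2 | h2
  · exact key 1 (one_mem _) (by rw [h2]; group)
  · exact key _ m1 (by rw [h2, c1]; exact t.lists.decide t.rep (by decide +kernel))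
  · exact key _ m2 (by rw [h2, c3]; exact t.lists.decide t.rep (by decide +kernel))
  · exact key _ (mul_mem m1 m2) (by rw [h2, ← conj_mul, c1, c3]; exact t.lists.decide t.rep (by decide +kernel))

end Int

end Cfsg.Agent.HeS
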