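import Mathlib
import Cfsg.Agent.HeS.Build

/-!
The ten letters of a subgroup `S1 ≅ UT₅(2)`.
-/

set_option autoImplicit false
set_option maxRecDepth 100000
set_option synthInstance.maxSize 100000
set_option synthInstance.maxHeartbeats 1000000

namespace Cfsg.Agent.HeS

open Cfsg.Agent.Spor Cfsg.Agent.Rec Cfsg.Agent.Rec.L52 Cfsg.Agent.Inv.Fz Cfsg.Agent.UT Subgroup

universe u

variable {G : Type u} [Group G]

theorem two_mul_card_le [Finite G] {H K : Subgroup G} (h : H < K) : 2 * Nat.card H ≤ Nat.card K := by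
  obtain ⟨k, hk⟩ := card_dvd_of_le h.le
  have h1 := card_lt_of_lt h
  rw [hk] at h1 ⊢
  have : 2 ≤ k := by
    by_contra h2
    have : k = 0 ∨ k = 1 := by omega
    rcases this with rfl | rfl <;> omega
  nlinarith

theorem cm (g a b : G) : g * (a * b) * g⁻¹ = g * a * g⁻¹ * (g * b * g⁻¹) := by group

/-- The letters `x45` and `x12`. -/
structure Top (G : Type u) [Group G] extends Int G where
  (x45 x12 : G)
  t2 : toInt.T2 x45
  t1 : toInt.flip.T2 x12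
  comm : x12 * x45 = x45 * x12

namespace Int

variable {t : Int G} {s : G}

theorem T2.flip_flip (h : t.T2 s) : t.flip.flip.T2 s :=
  ⟨h.sq, h.a13, h.a23, h.a35, h.a34, by
    obtain ⟨p, hp, h1⟩ := h.vt
    exact ⟨p, by rwa [t.flip.fP, t.fP], t.flip.fVt.2 (t.fVt.2 h1)⟩⟩

theorem T2.inv (h : t.T2 s) : s⁻¹ = s := inv_eq_of_mul_eq_one_right h.sq

theorem T2.actZ (h : t.T2 s) : s * t.x14 * s⁻¹ = t.x14 * t.z ∧ s * t.z * s⁻¹ = t.z ∧
    s * t.x24 * s⁻¹ = t.x24 * t.x25 ∧ s * t.x25 * s⁻¹ = t.x25 := t.actZ h.a13 h.a23 h.a35 h.a34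

variable [Finite G]

theorem T2.fix (h : t.T2 s) : t.Fix s := by
  obtain ⟨m1, m2, m3, m4, -⟩ := t.mems
  refine t.fix_of_A (cj_eq_of_le (cj_clos_le ?_)) (cj_eq_of_le (cj_clos_le ?_)) <;> simp only [List.forall_mem_cons]
  · exact ⟨h.a13.symm ▸ m1, h.a23.symm ▸ m2, by simp⟩
  · exact ⟨h.a35.symm ▸ m3, h.a34.symm ▸ mul_mem m4 m3, by simp⟩

theorem exists_top (t : Int G) : ∃ s : Top G, s.toInt = t := by
  obtain ⟨s2, h2⟩ := t.exists_T2
  obtain ⟨s1, h1⟩ := t.flip.exists_T2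
  have F1 : t.Fix s1 := ⟨h1.fix.2, h1.fix.1⟩
  have b35 : s1 * t.x35 * s1⁻¹ = t.x35 := h1.a13
  have b34 : s1 * t.x34 * s1⁻¹ = t.x34 := h1.a23
  have b13 : s1 * t.x13 * s1⁻¹ = t.x13 := h1.a35
  have b23 : s1 * t.x23 * s1⁻¹ = t.x23 * t.x13 := h1.a34
  -- the square of the product centralises `P`
  have hc : ∀ y ∈ t.P, s1 * s2 * (s1 * s2) * y = y * (s1 * s2 * (s1 * s2)) := commute_clos (by
    have e : ∀ y, s1 * s2 * (s1 * s2) * y * (s1 * s2 * (s1 * s2))⁻¹ =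
        s1 * (s2 * (s1 * (s2 * y * s2⁻¹) * s1⁻¹) * s2⁻¹) * s1⁻¹ := fun y => by group
    simp only [List.forall_mem_cons, ← mul_inv_eq_iff_eq_mul, e]
    refine ⟨by rw [h2.a13, b13, h2.a13, b13], ?_, ?_, by rw [h2.a35, b35, h2.a35, b35], by simp⟩
    · rw [h2.a23, b23, cm s2 t.x23, h2.a23, h2.a13, cm s1 t.x23, b23, b13]
      exact t.lists.decide t.rep (by decide +kernel)
    · rw [h2.a34, cm s1 t.x34, b34, b35, cm s2 t.x34, h2.a34, h2.a35, cm s1 _ t.x35, cm s1 t.x34, b34, b35]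
      exact t.lists.decide t.rep (by decide +kernel))
  obtain ⟨p, hp, o, ⟨k, ho⟩, h3, h4⟩ := t.cenZ _ fun y hy => hc y (t.Z_le hy)
  have hpZ : p ∈ t.Z := by
    have h5 : ∀ y ∈ t.P, p * y * p⁻¹ = y := fun y hy => by
      have := hc y hy
      rw [h4, mul_assoc, h3 y hy, ← mul_assoc, ← mul_assoc, mul_left_inj] at this
      rw [this, mul_inv_cancel_right]
    exact t.stab p hp ((h5 _ (t.E1_le t.x13_mem)).symm ▸ t.mems.1) ((h5 _ (t.E2_le t.x35_mem)).symm ▸ t.mems.2.2.1)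
  set r := s1 * s2 with hr
  have i2 : s2 * r * s2⁻¹ = r⁻¹ := by rw [hr, mul_inv_rev, h1.inv, h2.inv, mul_assoc, mul_assoc, h2.sq, mul_one]
  have hck : ∀ y ∈ t.P, (r * r) ^ k * y = y * (r * r) ^ k := fun y hy =>
    (show Commute (r * r) y from hc y hy).pow_left k
  have e2 : (r ^ k)⁻¹ * s2 * (r ^ k)⁻¹⁻¹ = s2 * (r * r) ^ k := by
    have ik : s2 * r ^ k * s2⁻¹ = (r ^ k)⁻¹ := by rw [← conj_pow, i2, inv_pow]
    rw [inv_inv, ← ik, (Commute.refl r).mul_pow]; group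
  have hT : t.T2 (s2 * (r * r) ^ k) := by
    have e : ∀ y ∈ t.P, s2 * (r * r) ^ k * y * (s2 * (r * r) ^ k)⁻¹ = s2 * y * s2⁻¹ := fun y hy => by
      rw [mul_assoc s2, hck y hy]; group
    obtain ⟨q, hq, h5⟩ := h2.vt
    refine ⟨by rw [← e2]; exact conj_sq h2.sq, (e _ (t.E1_le t.x13_mem)).trans h2.a13,
      (e _ (t.E1_le (t.A0_le t.mems.2.1))).trans h2.a23, (e _ (t.E2_le t.x35_mem)).trans h2.a35,
      (e _ (t.E2_le (t.B0_le t.mems.2.2.2.1))).trans h2.a34, (r ^ k)⁻¹ * q * (r ^ k)⁻¹⁻¹, ?_, ?_⟩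
    · exact mem_of_cj (cj_eq_iff.2 (inv_mem (pow_mem (cj_eq_iff.1 (F1.mul h2.fix).P) k))) hq
    · rw [← e2, conj_mul]; exact h5.conj _
  have e3 : s1 * (s2 * (r * r) ^ k) * (s1 * (s2 * (r * r) ^ k)) = p := by
    have hpo : Commute p o := (h3 p hp).symm
    calc _ = (r * r) ^ (2 * k + 1) := by rw [← mul_assoc s1 s2, ← hr, ← pow_two r]; group
      _ = p := by
        rw [h4, hpo.mul_pow, ← ho, pow_orderOf_eq_one, mul_one, ho, pow_succ, pow_mul, pow_two, t.Z_sq p hpZ, one_pow,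
          one_mul]
  generalize s2 * (r * r) ^ k = s at hT e3
  have hp' : p⁻¹ = p := inv_eq_of_mul_eq_one_right (t.Z_sq p hpZ)
  have f2 : s * p * s⁻¹ = p := by
    refine Eq.trans ?_ hp'
    rw [← e3]
    simp only [mul_inv_rev, hT.inv, h1.inv, mul_assoc, hT.sq, mul_one]
  have f1 : s1 * p * s1⁻¹ = p := by
    refine Eq.trans ?_ hp'
    rw [← e3]
    simp only [mul_inv_rev, hT.inv, h1.inv, ← mul_assoc, h1.sq, one_mul]
  have comm : ∀ {a : G}, a * a = 1 → a * s * (a * s) = 1 → a * s = s * a := fun {a} h5 h6 => by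
    rw [← inv_eq_of_mul_eq_one_right h6, mul_inv_rev, hT.inv, inv_eq_of_mul_eq_one_right h5]
  obtain ⟨c1, c2, c3, c4⟩ := h1.actZ
  change s1 * t.x25 * s1⁻¹ = t.x25 * t.z at c1
  change s1 * t.z * s1⁻¹ = t.z at c2
  change s1 * t.x14 * s1⁻¹ = t.x14 at c4
  rcases t.fixZ hT.a13 hT.a23 hT.a35 hT.a34 hpZ f2 with h5 | h5 | h5 | h5
  · exact ⟨⟨t, s, s1, hT, h1, comm h1.sq (e3.trans h5)⟩, rfl⟩
  · have m : t.x14 ∈ t.Z := t.mems.2.2.2.2.2.2.2.2.1
    have h6 : s1 * t.x14 * (s1 * t.x14) = 1 := by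
      calc _ = s1 * t.x14 * s1⁻¹ * (s1 * s1) * t.x14 := by group
        _ = 1 := by rw [c4, h1.sq, mul_one, t.Z_sq _ m]
    obtain ⟨q, hq, h7⟩ := h1.vt
    refine ⟨⟨t, s, s1 * t.x14, hT, ⟨h6, (t.conjZ m (t.E2_le t.x35_mem)).trans b35,
      (t.conjZ m (t.E2_le (t.B0_le t.mems.2.2.2.1))).trans b34, (t.conjZ m (t.E1_le t.x13_mem)).trans b13,
      (t.conjZ m (t.E1_le (t.A0_le t.mems.2.1))).trans b23, q * t.x14⁻¹,
      mul_mem hq (inv_mem (t.fP ▸ t.Z_le m)), ?_⟩, comm h6 ?_⟩, rfl⟩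
    · convert h7 using 1
      rw [mul_inv_eq_iff_eq_mul.1 c4]; group
    · calc _ = s1 * t.x14 * s1⁻¹ * (s1 * s * (s1 * s)) * (s⁻¹ * t.x14 * s) := by group
        _ = t.x14 * t.z * (s * t.x14 * s⁻¹) := by rw [c4, e3, h5, hT.inv]
        _ = 1 := by rw [hT.actZ.1]; exact t.Z_sq _ (mul_mem m t.mems.2.2.2.2.2.2.2.2.2.1)
  · rw [h5, c1] at f1
    exact absurd f1 (t.lists.decide t.rep (by decide +kernel))
  · rw [h5, cm, c1, c2] at f1
    exact absurd f1 (t.lists.decide t.rep (by decide +kernel))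

end Int

namespace Top

variable (t : Top G)

/-- The letters after the graph automorphism. -/
noncomputable def flip : Top G := ⟨t.toInt.flip, t.x12, t.x45, t.t1, t.t2.flip_flip, t.comm.symm⟩

/-- The ten letters. -/
abbrev e10 : List G := [t.x13, t.x14, t.z, t.x23, t.x24, t.x25, t.x34, t.x35, t.x45, t.x12]
/-- The group of order 1024. -/
def S1 : Subgroup G := clos [t.x12, t.x23, t.x34, t.x45]

theorem flip_S1 : t.flip.S1 = t.S1 :=
  le_antisymm (clos_le.2 fun x hx => mem_clos (by simp [flip, Int.flip, Let.flip] at hx ⊢; tauto))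
    (clos_le.2 fun x hx => mem_clos (by simp [flip, Int.flip, Let.flip] at hx ⊢; tauto))

theorem sat : Sat relT t.e10 := by
  have k : ∀ {s x y : G}, s * s = 1 → s * x * s⁻¹ = y → ∀ w, s * (x * (s * w)) = y * w := fun {s x y} h1 h2 w => by
    rw [← h2, inv_eq_of_mul_eq_one_right h1]; group
  have k' : ∀ {s x y : G}, s * s = 1 → s * x * s⁻¹ = y → ∀ w, x * (s * (x * (s * w))) = x * (y * w) :=
    fun {s x y} h1 h2 w => by rw [k h1 h2]
  obtain ⟨c1, c2, c3, c4⟩ := t.t2.actZ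
  obtain ⟨d1, d2, d3, d4⟩ := t.t1.actZ
  change t.x12 * t.x25 * t.x12⁻¹ = t.x25 * t.z at d1
  change t.x12 * t.z * t.x12⁻¹ = t.z at d2
  change t.x12 * t.x24 * t.x12⁻¹ = t.x24 * t.x14 at d3
  change t.x12 * t.x14 * t.x12⁻¹ = t.x14 at d4
  have b35 : t.x12 * t.x35 * t.x12⁻¹ = t.x35 := t.t1.a13
  have b34 : t.x12 * t.x34 * t.x12⁻¹ = t.x34 := t.t1.a23
  have b13 : t.x12 * t.x13 * t.x12⁻¹ = t.x13 := t.t1.a35
  have b23 : t.x12 * t.x23 * t.x12⁻¹ = t.x23 * t.x13 := t.t1.a34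
  have b45 : t.x12 * t.x45 * t.x12⁻¹ = t.x45 := by rw [t.comm, mul_inv_cancel_right]
  have h8 : Sat rel8 t.e10 := Sat.of_take (m := 8) (t.rep.sat rel8_ok) (by decide +kernel)
  have a : ∀ {x y : G}, t.x45 * x * t.x45⁻¹ = y → ∀ w, t.x45 * (x * (t.x45 * w)) = y * w := k t.t2.sq
  have b : ∀ {x y : G}, t.x12 * x * t.x12⁻¹ = y → ∀ w, t.x12 * (x * (t.x12 * w)) = y * w := k t.t1.sq
  refine sat_append.2 ⟨h8.mono (by decide +kernel), ?_⟩
  simp only [exT, sat_cons, evalW_cons, evalW_nil, nth_zero, nth_succ, sat_nil, and_true]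
  rw [k' t.t2.sq t.t2.a35, k' t.t2.sq t.t2.a34, a t.t2.a13, a c1, a c2, a t.t2.a23, a c3, a c4, b b13, b d4, b d2,
    b b23, b d3, b d1, b b34, b b35, b b45]
  simp only [mul_one, t.t2.sq, t.t1.sq, true_and, and_true]
  exact t.lists.decide t.rep (by decide +kernel)

variable [Finite G]

theorem exists_cod : ∃ C : Cod A G, C.RepL cT t.e10 := by
  refine codT rfl t.sat ?_
  obtain ⟨-, -, -, -, -, -, -, -, m1, -, -, m2⟩ := t.mems
  have h1 : t.P < t.P ⊔ zpowers t.x45 := lt_of_le_of_ne le_sup_left fun h => by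
    have := t.comm_Z _ m1 _ (h.ge (mem_sup_right (mem_zpowers _)))
    rw [← mul_inv_eq_iff_eq_mul, t.t2.actZ.1] at this
    exact absurd this (t.lists.decide t.rep (by decide +kernel))
  have h2 : t.P ⊔ zpowers t.x45 < clos t.e10 := by
    refine lt_of_le_of_ne (sup_le (clos_le.2 fun x hx => mem_clos (by simp at hx ⊢; tauto))
      (zpowers_le.2 (mem_clos (by simp)))) fun h => ?_
    have h3 : t.P ⊔ zpowers t.x45 ≤ centralizer {t.x25} := sup_le (fun p hp => mem_cen.2 (t.comm_Z _ m2 p hp))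
      (zpowers_le.2 (mem_cen'.2 t.t2.actZ.2.2.2))
    have h4 : t.x12 * t.x25 * t.x12⁻¹ = t.x25 * t.z := t.t1.actZ.1
    rw [mem_cen'.1 (h3 (h.ge (mem_clos (by simp))))] at h4
    exact absurd h4 (t.lists.decide t.rep (by decide +kernel))
  have h3 := two_mul_card_le h1
  have h4 := two_mul_card_le h2
  rw [t.genP.2] at h3
  omega

/-- The codes of the ten letters. -/
noncomputable def C10 : Cod A G := t.exists_cod.choose

theorem rep10 : t.C10.RepL cT t.e10 := t.exists_cod.choose_spec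

theorem genS : t.C10.Lists T_t.dom t.S1 ∧ Nat.card t.S1 = 1024 := (t.rep10.pick [9, 3, 6, 8]).gen T_ok

/-- The listed sets; use `t.ls.decide t.rep10 (by decide +kernel)`. -/
theorem ls : t.C10.ListsL
    [T_t.dom, P8_t.dom, R1_t.dom, R2_t.dom, E_t.dom, DA_t.dom, DB_t.dom, A0_t.dom, B0_t.dom]
    [t.S1, t.P, t.E1, t.E2, t.Z, t.V, t.W, t.A0, t.B0] :=
  t.genS.1.cons (Let.lists ⟨_, _, _, _, _, _, _, _, t.C10, t.rep10.take 8⟩)

end Top

end Cfsg.Agent.HeS
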