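import Mathlib
import Cfsg.Agent.HeS.Top

/-!
A Sylow 2-subgroup `S` above `S1`: its elements lie in `S1` or exchange `E1` and `E2`; in the second case there is an
involution exchanging them and centralising `W`.
-/

set_option autoImplicit false
set_option maxRecDepth 100000
set_option synthInstance.maxSize 100000
set_option synthInstance.maxHeartbeats 1000000

namespace Cfsg.Agent.HeS

open Cfsg.Agent.Spor Cfsg.Agent.Rec Cfsg.Agent.Rec.L52 Cfsg.Agent.Inv.Fz Cfsg.Agent.UT Subgroup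

universe u

variable {G : Type u} [Group G]

theorem eq_one_of_odd {o o' c : G} (ho : Odd (orderOf o)) (h : orderOf o' = orderOf o) (hc : c * c = 1)
    (h1 : o * c = c * o) (e : o * o' = c) : c = 1 := by
  obtain ⟨k, hk⟩ := ho
  have h2 : o' = o⁻¹ * c := by rw [← e]; group
  have h3 := pow_orderOf_eq_one o'
  rwa [h, h2, (show Commute o c from h1).inv_left.mul_pow, inv_pow, pow_orderOf_eq_one, inv_one, one_mul, hk, pow_succ,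
    pow_mul, pow_two, hc, one_pow, one_mul] at h3

namespace Top

variable (t : Top G)

/-- The elements fixing `z` and the set `{v, v z}`. -/
def Q : Subgroup G where
  carrier := {d | d * t.z * d⁻¹ = t.z ∧
    (d * (t.x14 * t.x25) * d⁻¹ = t.x14 * t.x25 ∨ d * (t.x14 * t.x25) * d⁻¹ = t.x14 * t.x25 * t.z)}
  one_mem' := ⟨by group, .inl (by group)⟩
  mul_mem' := by
    rintro a b ⟨h1, h2⟩ ⟨h3, h4⟩
    have e : ∀ y, a * b * y * (a * b)⁻¹ = a * (b * y * b⁻¹) * a⁻¹ := fun y => by group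
    refine ⟨by rw [e, h3, h1], ?_⟩
    rw [e]
    rcases h4 with h4 | h4 <;> rw [h4]
    · exact h2
    · rw [cm, h1]
      rcases h2 with h2 | h2 <;> rw [h2]
      · exact .inr rfl
      · exact .inl (by rw [mul_assoc, t.Z_sq _ t.mems.2.2.2.2.2.2.2.2.2.1, mul_one])
  inv_mem' := by
    rintro a ⟨h1, h2⟩
    have e : ∀ {y y'}, a * y * a⁻¹ = y' → a⁻¹ * y' * a⁻¹⁻¹ = y := fun h => by rw [← h]; group
    refine ⟨e h1, h2.imp e fun h => e ?_⟩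
    rw [cm, h1, h, mul_assoc, t.Z_sq _ t.mems.2.2.2.2.2.2.2.2.2.1, mul_one]

theorem vz : t.x14 * t.x25 * t.z = t.x14 * t.z * t.x25 := t.lists.decide t.rep (by decide +kernel)

variable [Finite G]

theorem P_leS : t.P ≤ t.S1 := t.ls.decide t.rep10 (by decide +kernel)

theorem S1_le : t.S1 ≤ t.Q := fun d hd =>
  (t.ls.decide t.rep10 (by decide +kernel) : ∀ d ∈ t.S1, d * t.z * d⁻¹ = t.z ∧
    (d * (t.x14 * t.x25) * d⁻¹ = t.x14 * t.x25 ∨ d * (t.x14 * t.x25) * d⁻¹ = t.x14 * t.x25 * t.z)) d hd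

theorem fix_S1 {s : G} (h : s ∈ t.S1) : t.Fix s := by
  have h1 : t.S1 ≤ normalizer (t.E1 : Set G) ⊓ normalizer (t.E2 : Set G) := by
    have k : ∀ {x}, t.Fix x → x ∈ normalizer (t.E1 : Set G) ⊓ normalizer (t.E2 : Set G) := fun h =>
      ⟨cj_eq_iff.1 h.1, cj_eq_iff.1 h.2⟩
    refine clos_le.2 ?_
    simp only [List.forall_mem_cons]
    exact ⟨k ⟨t.t1.fix.2, t.t1.fix.1⟩, k (Let.fix_of_mem (t.E1_le (t.A0_le t.mems.2.1))),
      k (Let.fix_of_mem (t.E2_le (t.B0_le t.mems.2.2.2.1))), k t.t2.fix, by simp⟩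
  exact ⟨cj_eq_iff.2 (h1 h).1, cj_eq_iff.2 (h1 h).2⟩

variable {t}

theorem Q_fix {d : G} (h : d * t.z * d⁻¹ = t.z) (h1 : d * (t.x14 * t.x25) * d⁻¹ = t.x14 * t.x25) :
    cj d t.V = t.V ∧ cj d t.W = t.W := by
  obtain ⟨-, -, -, -, m1, -, -, m2, -⟩ := t.mems
  obtain ⟨-, -, n1, n2, -⟩ := t.nes
  refine ⟨(t.ti1 n1 (h1 ▸ conj_mem_cj.2 m1) m1).1, ?_⟩
  have := (t.tiW (x := d * t.g) n2 (by
    rw [← cj_cj, t.gV, ← t.vz, ← h, ← h1, conj_mul, t.vz]; exact conj_mem_cj.2 m2) m2).1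
  rwa [← cj_cj, t.gV] at this

theorem x12_v : t.x12 * (t.x14 * t.x25 * t.z) * t.x12⁻¹ = t.x14 * t.x25 ∧ t.x12 * t.z * t.x12⁻¹ = t.z ∧
    t.x12 ∈ t.S1 := t.ls.decide t.rep10 (by decide +kernel)

theorem Q_cases {d : G} (h : d ∈ t.Q) : t.Fix d ∨ t.Sw d := by
  have k : ∀ {d}, d * t.z * d⁻¹ = t.z → d * (t.x14 * t.x25) * d⁻¹ = t.x14 * t.x25 → t.Fix d ∨ t.Sw d := fun h h1 =>
    Let.fix_or_sw (t.normP (by rw [t.Z_eq', cj_sup, (Q_fix h h1).1, (Q_fix h h1).2]))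
  rcases h.2 with h1 | h1
  · exact k h.1 h1
  have e : ∀ y, t.x12 * d * y * (t.x12 * d)⁻¹ = t.x12 * (d * y * d⁻¹) * t.x12⁻¹ := fun y => by group
  have F := (t.fix_S1 x12_v.2.2).inv
  refine (k (d := t.x12 * d) (by rw [e, h.1, x12_v.2.1]) (by rw [e, h1, x12_v.1])).imp (fun h2 => ?_) fun h2 => ?_
  · simpa using F.mul h2
  · simpa using F.mul_sw h2

variable {S : Subgroup G}

omit [Finite G] in
theorem mem_P_of_two (hS : IsPGroup 2 S) {d : G} (hd : d ∈ S) (h : ∀ y ∈ t.Z, d * y = y * d) : d ∈ t.P := by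
  obtain ⟨k, hk⟩ := hS ⟨d, hd⟩
  exact t.two_mem h (k := k) (congrArg Subtype.val hk)

theorem mem_S1 (hS : IsPGroup 2 S) (hle : t.S1 ≤ S) {d : G} (hd : d ∈ S) (h : t.Fix d) (hz : d * t.z * d⁻¹ = t.z) :
    d ∈ t.S1 := by
  obtain ⟨q, hq, hA, hB⟩ := t.adjust h
  obtain ⟨m1, m2, m3, m4, -, -, -, -, -, m5, -⟩ := t.mems
  have h1 : ∀ a ∈ t.A0, ∀ b ∈ t.B0, a * b * a⁻¹ * b⁻¹ = t.z → ∀ a' ∈ t.A0, ∀ b' ∈ t.B0, a' ≠ 1 → a' ≠ a → b' ≠ 1 →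
      b' ≠ b → ∃ s ∈ t.S1, s * a * s⁻¹ = t.x13 ∧ s * a' * s⁻¹ = t.x23 ∧ s * b' * s⁻¹ = t.x34 ∧
        s * b * s⁻¹ = t.x35 := t.ls.decide t.rep10 (by decide +kernel)
  have n : t.x23 ≠ 1 ∧ t.x23 ≠ t.x13 ∧ t.x34 ≠ 1 ∧ t.x34 ≠ t.x35 := t.lists.decide t.rep (by decide +kernel)
  obtain ⟨s, hs, c1, c2, c3, c4⟩ := h1 _ (mem_of_cj hA m1) _ (mem_of_cj hB m3) (by
      rw [← (t.act (g := q * d) rfl rfl rfl rfl).2.1]
      calc _ = q * (d * t.z * d⁻¹) * q⁻¹ := by group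
        _ = _ := by rw [hz, t.comm_Z _ m5 q hq, mul_inv_cancel_right])
    _ (mem_of_cj hA m2) _ (mem_of_cj hB m4) (fun e => n.1 (conj_eq_one.1 e)) (fun e => n.2.1 (by simpa using e))
    (fun e => n.2.2.1 (conj_eq_one.1 e)) (fun e => n.2.2.2 (by simpa using e))
  have h2 : ∀ y ∈ t.P, s * (q * d) * y = y * (s * (q * d)) := commute_clos (by
    have e : ∀ y, s * (q * d) * y * (s * (q * d))⁻¹ = s * (q * d * y * (q * d)⁻¹) * s⁻¹ := fun y => by group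
    simp only [List.forall_mem_cons, ← mul_inv_eq_iff_eq_mul, e]
    exact ⟨c1, c2, c3, c4, by simp⟩)
  have h3 := t.P_leS (mem_P_of_two hS (mul_mem (hle hs) (mul_mem (hle (t.P_leS hq)) hd)) fun y hy => h2 y (t.Z_le hy))
  exact (mul_mem_cancel_left (t.P_leS hq)).1 ((mul_mem_cancel_left hs).1 h3)

theorem le_Q (hS : IsPGroup 2 S) (hle : t.S1 ≤ S) : S ≤ t.Q := by
  by_contra h
  have h1 : S ⊓ t.Q < S := lt_of_le_of_ne inf_le_left fun e => h (inf_eq_left.1 e)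
  obtain ⟨d, ⟨hd, hn⟩, hd'⟩ := SetLike.exists_of_lt (lt_inf_normalizer hS h1)
  have hn' : cj d (S ⊓ t.Q) = S ⊓ t.Q := cj_eq_iff.2 hn
  have hR : t.S1 ≤ S ⊓ t.Q := le_inf hle t.S1_le
  have cases : ∀ r ∈ S ⊓ t.Q, r ∈ t.S1 ∨ t.Sw r := fun r hr =>
    (Q_cases hr.2).imp_left fun h2 => mem_S1 hS hle hr.1 h2 hr.2.1
  obtain ⟨-, -, -, -, m1, -, -, -, -, m2, -⟩ := t.mems
  have m13 : t.x13 ∈ S ⊓ t.Q := hR (t.P_leS (t.E1_le t.x13_mem))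
  have mS : t.x12 ∈ t.S1 ∧ t.x23 ∈ t.S1 ∧ t.x34 ∈ t.S1 ∧ t.x45 ∈ t.S1 := t.ls.decide t.rep10 (by decide +kernel)
  have e : ∀ r y, r * (d * y * d⁻¹) * r⁻¹ = d * (d⁻¹ * r * d * y * (d⁻¹ * r * d)⁻¹) * d⁻¹ := fun r y => by group
  have hz : d * t.z * d⁻¹ = t.z := by
    have h2 : ∀ r ∈ S ⊓ t.Q, r * (d * t.z * d⁻¹) * r⁻¹ = d * t.z * d⁻¹ := fun r hr => by
      rw [e, (mem_of_cj' hn' hr).2.1]
    have h3 : ∀ y ∈ t.S1, t.x12 * y * t.x12⁻¹ = y → t.x23 * y * t.x23⁻¹ = y → t.x34 * y * t.x34⁻¹ = y →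
        t.x45 * y * t.x45⁻¹ = y → y = 1 ∨ y = t.z := t.ls.decide t.rep10 (by decide +kernel)
    rcases cases _ (mem_of_cj hn' (hR (t.P_leS (t.Z_le m2)))) with h4 | h4
    · exact (h3 _ h4 (h2 _ (hR mS.1)) (h2 _ (hR mS.2.1)) (h2 _ (hR mS.2.2.1)) (h2 _ (hR mS.2.2.2))).resolve_left
        fun e => t.nes.2.2.2.2.2 (conj_eq_one.1 e)
    · have h5 := mem_of_cj h4.1 t.x13_mem
      rw [← mul_inv_eq_iff_eq_mul.1 (h2 _ m13), mul_inv_cancel_right] at h5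
      exact absurd h5 t.nes.2.2.2.2.1
  refine hd' ⟨hd, hz, ?_⟩
  have hv := (t.vt_V m1 t.nes.2.2.1).conj d
  have h2 : ∀ r ∈ S ⊓ t.Q, r * (d * (t.x14 * t.x25) * d⁻¹) * r⁻¹ = d * (t.x14 * t.x25) * d⁻¹ ∨
      r * (d * (t.x14 * t.x25) * d⁻¹) * r⁻¹ = d * (t.x14 * t.x25) * d⁻¹ * t.z := fun r hr => by
    rw [e]
    exact (mem_of_cj' hn' hr).2.2.imp (fun h => by rw [h]) fun h => by rw [h, cm, hz]
  have h4 := cases _ (mem_of_cj hn' (hR (t.P_leS (t.Z_le (t.V_le m1)))))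
  generalize d * (t.x14 * t.x25) * d⁻¹ = y at hv h2 h4
  have h3 : ∀ y ∈ t.S1, (t.x12 * y * t.x12⁻¹ = y ∨ t.x12 * y * t.x12⁻¹ = y * t.z) →
      (t.x23 * y * t.x23⁻¹ = y ∨ t.x23 * y * t.x23⁻¹ = y * t.z) →
      (t.x34 * y * t.x34⁻¹ = y ∨ t.x34 * y * t.x34⁻¹ = y * t.z) →
      (t.x45 * y * t.x45⁻¹ = y ∨ t.x45 * y * t.x45⁻¹ = y * t.z) →
      y ∈ t.Z ∧ (y ∈ t.V ∨ y ∈ t.W → y ≠ 1 → y = t.x14 * t.x25 ∨ y = t.x14 * t.x25 * t.z) :=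
    t.ls.decide t.rep10 (by decide +kernel)
  rcases h4 with h4 | h4
  · obtain ⟨h5, h6⟩ := h3 _ h4 (h2 _ (hR mS.1)) (h2 _ (hR mS.2.1)) (h2 _ (hR mS.2.2.1)) (h2 _ (hR mS.2.2.2))
    exact h6 (t.fus hv h5) hv.ne
  · have h5 := mem_of_cj' h4.2 t.x13_mem
    refine absurd ?_ t.nes.2.2.2.2.1
    rcases h2 _ m13 with h6 | h6 <;> rw [mul_assoc, mul_inv_eq_iff_eq_mul.1 h6] at h5
    · simpa using h5
    · rw [mul_assoc y, inv_mul_cancel_left] at h5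
      exact (mul_mem_cancel_left (t.Z_le2 m2)).1 h5

theorem S_cases (hS : IsPGroup 2 S) (hle : t.S1 ≤ S) {d : G} (hd : d ∈ S) : d ∈ t.S1 ∨ t.Sw d :=
  (Q_cases (le_Q hS hle hd)).imp_left fun h => mem_S1 hS hle hd h (le_Q hS hle hd).1

omit [Finite G] in
theorem cenW_iff {d : G} : (∀ w ∈ t.W, d * w = w * d) ↔
    d * (t.z * t.x24) * d⁻¹ = t.z * t.x24 ∧ d * (t.x14 * t.z * t.x25) * d⁻¹ = t.x14 * t.z * t.x25 := by
  obtain ⟨-, -, -, -, -, -, m1, m2, -⟩ := t.mems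
  refine ⟨fun h => ⟨by rw [h _ m1, mul_inv_cancel_right], by rw [h _ m2, mul_inv_cancel_right]⟩, fun h => ?_⟩
  exact commute_clos (by
    simp only [List.forall_mem_cons]
    exact ⟨mul_inv_eq_iff_eq_mul.1 h.1, mul_inv_eq_iff_eq_mul.1 h.2, by simp⟩)

theorem exists_d (hS : IsPGroup 2 S) (hle : t.S1 ≤ S) {d : G} (hd : d ∈ S) (h : t.Sw d) :
    ∃ d ∈ S, t.Sw d ∧ ∀ w ∈ t.W, d * w = w * d := by
  have e : ∀ s d y : G, s * d * y * (s * d)⁻¹ = s * (d * y * d⁻¹) * s⁻¹ := fun s d y => by group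
  obtain ⟨d, hd, h, hv⟩ : ∃ d ∈ S, t.Sw d ∧ d * (t.x14 * t.x25) * d⁻¹ = t.x14 * t.x25 := by
    rcases (le_Q hS hle hd).2 with h1 | h1
    · exact ⟨d, hd, h, h1⟩
    · exact ⟨_, mul_mem (hle x12_v.2.2) hd, (t.fix_S1 x12_v.2.2).mul_sw h, by rw [e, h1, x12_v.1]⟩
  have hz := (le_Q hS hle hd).1
  have h1 : d * (t.x14 * t.z * t.x25) * d⁻¹ = t.x14 * t.z * t.x25 := by rw [← t.vz, cm, hv, hz]
  have h2 : ∀ w ∈ t.W, w ≠ 1 → w ≠ t.x14 * t.z * t.x25 → w = t.z * t.x24 ∨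
      t.x12 * t.x45 * w * (t.x12 * t.x45)⁻¹ = t.z * t.x24 := t.ls.decide t.rep10 (by decide +kernel)
  have h3 : t.z * t.x24 ≠ 1 ∧ t.z * t.x24 ≠ t.x14 * t.z * t.x25 ∧ t.x12 * t.x45 ∈ t.S1 ∧
      t.x12 * t.x45 * (t.x14 * t.z * t.x25) * (t.x12 * t.x45)⁻¹ = t.x14 * t.z * t.x25 :=
    t.ls.decide t.rep10 (by decide +kernel)
  rcases h2 _ (mem_of_cj (Q_fix hz hv).2 t.mems.2.2.2.2.2.2.1) (fun e => h3.1 (conj_eq_one.1 e))
    (fun e => h3.2.1 (by simpa using e.trans h1.symm)) with h4 | h4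
  · exact ⟨d, hd, h, cenW_iff.2 ⟨h4, h1⟩⟩
  · exact ⟨_, mul_mem (hle h3.2.2.1) hd, (t.fix_S1 h3.2.2.1).mul_sw h,
      cenW_iff.2 ⟨by rw [e, h4], by rw [e, h1, h3.2.2.2]⟩⟩

theorem adjust_sw {d : G} (h : t.Sw d) : ∃ q ∈ t.P, cj (q * d) t.A0 = t.B0 ∧ cj (q * d) t.B0 = t.A0 := by
  have key : ∀ (t : Int G) {x : G}, t.Sw x → ∃ p ∈ t.B0, cj (p * x) t.B0 = t.A0 := fun t x h => by
    have hB : cj (t.w2 * t.flip.g) t.V = t.B0 := t.fV ▸ t.flip.cjA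
    obtain ⟨p, hp, h1, -⟩ := t.ptA (x := x * (t.w2 * t.flip.g))
      (by rw [← cj_cj, hB]; exact conj_mem_cj.2 t.mems.2.2.1) (mem_of_cj h.2 t.x35_mem)
      fun h2 => t.nes.2.1 (t.flip.A0Z _ t.flip.mems.1 (by simpa [mul_assoc, t.fZ] using mem_of_cj' h.Z h2))
    exact ⟨p, hp, by rwa [← mul_assoc, ← cj_cj, hB] at h1⟩
  obtain ⟨p, hp, h1⟩ := key t.toInt h
  have hp' := t.E2_le (t.B0_le hp)
  obtain ⟨p', hq, h2⟩ := key t.toInt.flip ((Let.fix_of_mem hp').mul_sw h).flip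
  refine ⟨p' * p, mul_mem (t.E1_le (t.A0_le hq)) hp', by rw [mul_assoc]; exact h2, ?_⟩
  rw [mul_assoc, ← cj_cj, h1]
  exact cj_eq_of_mem hq

theorem exists_inv (hS : IsPGroup 2 S) (hle : t.S1 ≤ S) {d : G} (hd : d ∈ S) (h : t.Sw d) :
    ∃ c ∈ S, t.Sw c ∧ c * c = 1 ∧ ∀ w ∈ t.W, c * w = w * c := by
  obtain ⟨d, hd, h, hW⟩ := exists_d hS hle hd h
  obtain ⟨q, hq, hA, hB⟩ := adjust_sw h
  replace hd : q * d ∈ S := mul_mem (hle (t.P_leS hq)) hd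
  replace h : t.Sw (q * d) := (Let.fix_of_mem hq).mul_sw h
  replace hW : ∀ w ∈ t.W, q * d * w = w * (q * d) := fun w hw => by
    rw [mul_assoc, hW w hw, ← mul_assoc, t.comm_Z w (t.W_le hw) q hq, mul_assoc]
  generalize q * d = d at hd h hW hA hB
  clear hq
  have hV : cj d t.V = t.V := t.fix_WV h.Z (cj_eq_of_le (cj_le_iff.2 fun w hw => by
    rwa [hW w hw, mul_inv_cancel_right]))
  obtain ⟨m1, -, m3, -⟩ := t.mems
  -- the square lies in `Z`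
  have hu : d * d ∈ t.Z := by
    have h1 : ∀ s ∈ t.S1, (∀ w ∈ t.W, s * w = w * s) → s ∈ t.P := t.ls.decide t.rep10 (by decide +kernel)
    refine t.stab _ (h1 _ (mem_S1 hS hle (mul_mem hd hd) (h.mul h) (le_Q hS hle (mul_mem hd hd)).1) fun w hw => ?_)
      (mem_of_cj (cj_mul_eq hB hA) m1) (mem_of_cj (cj_mul_eq hA hB) m3)
    rw [mul_assoc, hW w hw, ← mul_assoc, hW w hw, mul_assoc]
  -- the commutator with `h`
  obtain ⟨p, hp, o, ho, h1, h2⟩ := t.cenZ (t.h * d * t.h⁻¹ * d⁻¹) fun y hy => by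
    obtain ⟨v, hv, w, hw, rfl⟩ := t.split y hy
    refine ((Commute.mul_right ?_ ?_ : Commute _ (v * w))).eq
    · rw [commute_iff_eq, ← mul_inv_eq_iff_eq_mul]
      calc _ = t.h * (d * (t.h⁻¹ * (d⁻¹ * v * d) * t.h⁻¹⁻¹) * d⁻¹) * t.h⁻¹ := by group
        _ = t.h * v * t.h⁻¹ := by rw [t.comm_V (inv_mem t.h_mem) (mem_of_cj' hV hv)]; group
        _ = v := t.comm_V t.h_mem hv
    · rw [commute_iff_eq, ← mul_inv_eq_iff_eq_mul]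
      calc _ = t.h * (d * (t.h⁻¹ * (d⁻¹ * (w * d)) * t.h) * d⁻¹) * t.h⁻¹ := by group
        _ = _ := by rw [← hW w hw, inv_mul_cancel_left, hW _ (mem_of_cj' t.hW hw)]; group
  have hp' : p = t.h * d * t.h⁻¹ * d⁻¹ * o⁻¹ := by rw [h2]; group
  have ho' : ∀ {K : Subgroup G}, K ≤ t.P → cj o⁻¹ K = K := fun hK => cj_eq_of_le (cj_le_iff.2 fun y hy => by
    rwa [mul_assoc, inv_inv, ← h1 y (hK hy), inv_mul_cancel_left])
  have hpZ : p ∈ t.Z := t.stab p hp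
    (mem_of_cj (hp' ▸ cj_mul_eq (cj_mul_eq (cj_mul_eq (cj_mul_eq t.hA hB) (cj_inv_eq t.hB)) (cj_inv_eq hB))
      (ho' (t.A0_le.trans t.E1_le))) m1)
    (mem_of_cj (hp' ▸ cj_mul_eq (cj_mul_eq (cj_mul_eq (cj_mul_eq t.hB hA) (cj_inv_eq t.hA)) (cj_inv_eq hA))
      (ho' (t.B0_le.trans t.E2_le))) m3)
  have hpd := mem_of_cj h.Z hpZ
  have h3 : t.h * (d * d) * t.h⁻¹ * (d * d)⁻¹ = p * (d * p * d⁻¹) * (o * (d * o * d⁻¹)) := by
    calc _ = t.h * d * t.h⁻¹ * d⁻¹ * (d * (t.h * d * t.h⁻¹ * d⁻¹) * d⁻¹) := by group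
      _ = p * (o * (d * p * d⁻¹)) * (d * o * d⁻¹) := by rw [h2]; group
      _ = _ := by rw [h1 _ (t.Z_le hpd)]; group
  have h4 : o * (d * o * d⁻¹) ∈ t.Z := by
    rw [← mul_mem_cancel_left (mul_mem hpZ hpd), ← h3]
    exact mul_mem (mem_of_cj t.hFix.Z hu) (inv_mem hu)
  rw [eq_one_of_odd ho ((MulAut.conj d).orderOf_eq o) (t.Z_sq _ h4) (h1 _ (t.Z_le h4)) rfl, mul_one] at h3
  have h5 : ∀ y ∈ t.Z, y * (d * y * d⁻¹) ∈ t.V := fun y hy => by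
    obtain ⟨v, hv, w, hw, rfl⟩ := t.split y hy
    rw [cm, hW w hw, mul_inv_cancel_right, mul_assoc v, t.comm_Z _ (t.W_le hw) _ (t.Z_le (t.V_le (mem_of_cj hV hv))),
      ← mul_assoc w, t.Z_sq w (t.W_le hw), one_mul]
    exact mul_mem hv (mem_of_cj hV hv)
  have h6 : d * d ∈ t.V := by
    obtain ⟨v, hv, w, hw, e⟩ := t.split _ hu
    have h7 := h5 p hpZ
    rw [← h3, e, cm, t.comm_V t.h_mem hv, mul_inv_rev, mul_assoc, ← mul_assoc _ w⁻¹, mul_mem_cancel_left hv,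
      mul_mem_cancel_right (inv_mem hv)] at h7
    rw [e, t.h_fpf w hw (mul_inv_eq_one.1 (t.VW _ h7 (mul_mem (mem_of_cj t.hW hw) (inv_mem hw)))), mul_one]
    exact hv
  by_cases h7 : d * d = 1
  · exact ⟨d, hd, h, h7, hW⟩
  have h8 : ∀ u ∈ t.V, u ≠ 1 → ∃ v ∈ t.V, (∀ v' ∈ t.V, v' ≠ 1 → v' ≠ u → v' = v ∨ v' * u * v = 1) ∧ v ≠ 1 ∧ v ≠ u ∧
      ∀ y ∈ t.V, y = 1 ∨ y = u ∨ y = v ∨ y = u * v := t.lists.decide t.rep (by decide +kernel)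
  obtain ⟨v, hv, h9, n1, n2, h10⟩ := h8 _ h6 h7
  have hvP := t.Z_le (t.V_le hv)
  have h11 : d * (d * d) * d⁻¹ = d * d := by group
  rcases h9 _ (mem_of_cj hV hv) (fun e => n1 (conj_eq_one.1 e)) (fun e => n2 (by simpa using e.trans h11.symm))
    with h12 | h12
  · refine absurd h (Let.fix_of_mem (mem_P_of_two hS hd fun y hy => ?_)).not_sw
    obtain ⟨v', hv', w, hw, rfl⟩ := t.split y hy
    refine ((Commute.mul_right ?_ (hW w hw) : Commute _ (v' * w))).eq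
    have h13 : Commute d v := mul_inv_eq_iff_eq_mul.1 h12
    rcases h10 v' hv' with rfl | rfl | rfl | rfl
    exacts [Commute.one_right _, (Commute.refl d).mul_right (Commute.refl d), h13,
      ((Commute.refl d).mul_right (Commute.refl d)).mul_right h13]
  · refine ⟨d * v, mul_mem hd (hle (t.P_leS hvP)), h.mul_fix (Let.fix_of_mem hvP), by rw [← h12]; group,
      fun w hw => ?_⟩
    rw [mul_assoc, t.comm_Z w (t.W_le hw) v hvP, ← mul_assoc, hW w hw, mul_assoc]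

end Top

end Cfsg.Agent.HeS
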